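import Mathlib
import Cfsg.Agent.H553.KClass
import Cfsg.Agent.H174.ClassIndex
import Cfsg.Agent.H489.DixonPerm
set_option linter.all false

-- part: H558/CP/Basic
section
/-!
# The commuting probability of a finite group: a bound `|G| ≤ b k(G)`

`CB G b` : `|G| ≤ b k(G)`. Subgroups, products, normal subgroups.
-/

set_option autoImplicit false

namespace Cfsg.Agent.H558.CP

open Subgroup

/-- `|G| ≤ b k(G)`. -/
def CB (G : Type*) [Group G] (b : ℚ) : Prop := (Nat.card G : ℚ) ≤ b * Nat.card (ConjClasses G)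

theorem CB.mono {G : Type*} [Group G] {b c : ℚ} (h : CB G b) (hbc : b ≤ c) : CB G c :=
  h.trans (mul_le_mul_of_nonneg_right hbc (Nat.cast_nonneg _))

theorem CB.congr {G H : Type*} [Group G] [Group H] {b : ℚ} (e : G ≃* H) (h : CB G b) : CB H b := by
  unfold CB at *
  rw [← Nat.card_congr e.toEquiv, ← H553.KClass.congr e]
  exact h

theorem CB.subgroup {G : Type*} [Group G] [Finite G] {b : ℚ} (h : CB G b) (hb : 0 ≤ b)
    (H : Subgroup G) : CB H b := by
  unfold CB at *
  have h1 := H174.ClassIndex.card_conjClasses_le H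
  have h2 := H.card_mul_index
  have h3 : (Nat.card (ConjClasses G) : ℚ) ≤ H.index * Nat.card (ConjClasses H) := by
    exact_mod_cast h1
  have h4 : (Nat.card H : ℚ) * H.index = Nat.card G := by exact_mod_cast h2
  have h5 : (0 : ℚ) < H.index := by
    have : H.index ≠ 0 := Subgroup.index_ne_zero_of_finite
    positivity
  have h6 : (Nat.card H : ℚ) * H.index ≤ (b * Nat.card (ConjClasses H)) * H.index := by
    rw [h4]
    calc (Nat.card G : ℚ) ≤ b * Nat.card (ConjClasses G) := h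
      _ ≤ b * (H.index * Nat.card (ConjClasses H)) := mul_le_mul_of_nonneg_left h3 hb
      _ = _ := by ring
  exact le_of_mul_le_mul_right h6 h5

theorem CB.of_injective {G H : Type*} [Group G] [Group H] [Finite G] {b : ℚ} (h : CB G b)
    (hb : 0 ≤ b) (f : H →* G) (hf : Function.Injective f) : CB H b :=
  (h.subgroup hb f.range).congr (MonoidHom.ofInjective hf).symm

/-- `|G| ≤ |G : N|² b k(G)` if `|N| ≤ b k(N)`. -/
theorem CB.of_subgroup {G : Type*} [Group G] [Finite G] {b : ℚ} (N : Subgroup G) (h : CB N b)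
    (hb : 0 ≤ b) : CB G (b * (N.index : ℚ) ^ 2) := by
  unfold CB at *
  have h1 := H553.KClass.mul_card_le N
  have h2 := N.card_mul_index
  have h3 : (Nat.card (ConjClasses N) : ℚ) * Nat.card N ≤ Nat.card (ConjClasses G) * Nat.card G := by
    exact_mod_cast h1
  have h4 : (Nat.card N : ℚ) * N.index = Nat.card G := by exact_mod_cast h2
  have h5 : (0 : ℚ) < Nat.card N := by exact_mod_cast Nat.card_pos
  have h6 : (Nat.card (ConjClasses N) : ℚ) ≤ Nat.card (ConjClasses G) * N.index := by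
    refine le_of_mul_le_mul_right ?_ h5
    calc (Nat.card (ConjClasses N) : ℚ) * Nat.card N ≤ Nat.card (ConjClasses G) * Nat.card G := h3
      _ = _ := by rw [← h4]; ring
  rw [← h4]
  calc (Nat.card N : ℚ) * N.index ≤ (b * Nat.card (ConjClasses N)) * N.index :=
        mul_le_mul_of_nonneg_right h (Nat.cast_nonneg _)
    _ ≤ (b * (Nat.card (ConjClasses G) * N.index)) * N.index :=
        mul_le_mul_of_nonneg_right (mul_le_mul_of_nonneg_left h6 hb) (Nat.cast_nonneg _)
    _ = _ := by ring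

/-- the class number of a product -/
theorem card_pi {ι : Type*} [Finite ι] (G : ι → Type*) [∀ i, Group (G i)] [∀ i, Finite (G i)] :
    Nat.card (ConjClasses (∀ i, G i)) = ∏ᶠ i, Nat.card (ConjClasses (G i)) := by
  classical
  have := Fintype.ofFinite ι
  have e : {p : (∀ i, G i) × (∀ i, G i) // Commute p.1 p.2} ≃
      ∀ i, {p : G i × G i // Commute p.1 p.2} :=
    { toFun := fun p i => ⟨(p.1.1 i, p.1.2 i), congrFun p.2 i⟩
      invFun := fun q => ⟨(fun i => (q i).1.1, fun i => (q i).1.2), funext fun i => (q i).2⟩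
      left_inv := fun p => rfl
      right_inv := fun q => rfl }
  have h1 := card_comm_eq_card_conjClasses_mul_card (∀ i, G i)
  rw [Nat.card_congr e, Nat.card_pi] at h1
  have h2 : ∀ i, Nat.card {p : G i × G i // Commute p.1 p.2} =
      Nat.card (ConjClasses (G i)) * Nat.card (G i) :=
    fun i => card_comm_eq_card_conjClasses_mul_card (G i)
  rw [Finset.prod_congr rfl (fun i _ => h2 i), Finset.prod_mul_distrib, Nat.card_pi] at h1
  have h3 : 0 < ∏ i, Nat.card (G i) := Finset.prod_pos (fun i _ => Nat.card_pos)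
  rw [finprod_eq_prod_of_fintype]
  exact (Nat.eq_of_mul_eq_mul_right h3 h1).symm

theorem CB.pi {ι : Type*} [Fintype ι] (G : ι → Type*) [∀ i, Group (G i)] [∀ i, Finite (G i)]
    (b : ι → ℚ) (hb : ∀ i, 0 ≤ b i) (h : ∀ i, CB (G i) (b i)) : CB (∀ i, G i) (∏ i, b i) := by
  unfold CB at *
  rw [card_pi, finprod_eq_prod_of_fintype, Nat.card_pi]
  push_cast
  rw [← Finset.prod_mul_distrib]
  exact Finset.prod_le_prod (fun i _ => Nat.cast_nonneg _) (fun i _ => h i)

theorem CB.of_comm {G : Type*} [Group G] [Finite G] (h : ∀ x y : G, x * y = y * x) : CB G 1 := by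
  unfold CB
  rw [one_mul]
  have : Nat.card G ≤ Nat.card (ConjClasses G) := by
    refine Nat.card_le_card_of_injective (fun x : G => ConjClasses.mk x) ?_
    intro x y hxy
    obtain ⟨g, hg⟩ := isConj_iff.mp (ConjClasses.mk_eq_mk_iff_isConj.mp hxy)
    rw [← hg, h g x, mul_assoc, mul_inv_cancel, mul_one]
  exact_mod_cast this

end Cfsg.Agent.H558.CP
end

-- part: H558/CP/Weights
section
/-!
# Weight spaces of an abelian normal subgroup of a finite linear group

A version of `H553/Weights.lean` over an arbitrary algebraically closed field.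
-/

set_option autoImplicit false

namespace Cfsg.Agent.H558.CP

open Module

universe u v w

/-- An endomorphism of finite order with only one eigenvalue is a scalar. -/
theorem scalar_of_maxGen {K : Type*} [Field K] {V : Type*} [AddCommGroup V] [Module K V]
    [FiniteDimensional K V]
    (f : Module.End K V) {n : ℕ} (hn : (n : K) ≠ 0) (hf : f ^ n = 1) (c : K)
    (h : f.maxGenEigenspace c = ⊤) : ∀ v, f v = c • v := by
  have hss : f.IsSemisimple := by
    refine Module.End.isSemisimple_of_squarefree_aeval_eq_zero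
      (p := Polynomial.X ^ n - Polynomial.C 1) ?_ ?_
    · exact (Polynomial.separable_X_pow_sub_C (1 : K) hn
        one_ne_zero).squarefree
    · simp [hf]
  rw [hss.isFinitelySemisimple.maxGenEigenspace_eq_eigenspace] at h
  intro v
  have hv : v ∈ f.eigenspace c := by rw [h]; trivial
  exact Module.End.mem_eigenspace_iff.mp hv

variable {K : Type w} [Field K] {G : Type u} [Group G] {V : Type v} [AddCommGroup V] [Module K V]

/-- The generalized weight space. -/
def wt (ρ : Representation K G V) (A : Subgroup G) (χ : A → K) : Submodule K V :=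
  ⨅ a : A, Module.End.maxGenEigenspace (ρ a) (χ a)

theorem mem_wt (ρ : Representation K G V) (A : Subgroup G) (χ : A → K) (v : V) :
    v ∈ wt ρ A χ ↔ ∀ a : A, ∃ k : ℕ, ((ρ a - χ a • (1 : Module.End K V)) ^ k) v = 0 := by
  rw [wt, Submodule.mem_iInf]
  exact forall_congr' (fun a => Module.End.mem_maxGenEigenspace _ _ _)

/-- Conjugation of weights. -/
def cj {A : Subgroup G} (hA : A.Normal) (g : G) (χ : A → K) : A → K :=
  fun a => χ ⟨g⁻¹ * a * g, by simpa using hA.conj_mem a a.2 g⁻¹⟩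

theorem cj_one {A : Subgroup G} (hA : A.Normal) (χ : A → K) : cj hA 1 χ = χ := by
  funext a
  unfold cj
  congr 1
  apply Subtype.ext
  simp

theorem cj_mul {A : Subgroup G} (hA : A.Normal) (g h : G) (χ : A → K) :
    cj hA (g * h) χ = cj hA g (cj hA h χ) := by
  funext a
  unfold cj
  congr 1
  apply Subtype.ext
  simp [mul_assoc]

theorem map_mem_wt (ρ : Representation K G V) {A : Subgroup G} (hA : A.Normal) (g : G)
    (χ : A → K) {v : V} (hv : v ∈ wt ρ A χ) : ρ g v ∈ wt ρ A (cj hA g χ) := by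
  rw [mem_wt] at hv ⊢
  intro a
  obtain ⟨k, hk⟩ := hv ⟨g⁻¹ * a * g, by simpa using hA.conj_mem a a.2 g⁻¹⟩
  refine ⟨k, ?_⟩
  have h1 : ∀ w : V, (ρ a - cj hA g χ a • (1 : Module.End K V)) (ρ g w) =
      ρ g ((ρ (g⁻¹ * a * g) - cj hA g χ a • (1 : Module.End K V)) w) := by
    intro w
    have h2 : ρ a (ρ g w) = ρ g (ρ (g⁻¹ * a * g) w) := by
      rw [← Module.End.mul_apply, ← Module.End.mul_apply, ← map_mul, ← map_mul]
      congr 2
      group
    simp only [LinearMap.sub_apply, LinearMap.smul_apply, Module.End.one_apply, h2, map_sub,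
      map_smul]
  have h3 : ∀ (k : ℕ) (w : V), ((ρ a - cj hA g χ a • (1 : Module.End K V)) ^ k) (ρ g w) =
      ρ g (((ρ (g⁻¹ * a * g) - cj hA g χ a • (1 : Module.End K V)) ^ k) w) := by
    intro k
    induction k with
    | zero => intro w; simp
    | succ k ih =>
      intro w
      rw [pow_succ, pow_succ, Module.End.mul_apply, Module.End.mul_apply, h1, ih]
  rw [h3 k v]
  have h4 : cj hA g χ a = χ ⟨g⁻¹ * a * g, by simpa using hA.conj_mem a a.2 g⁻¹⟩ := rfl
  rw [h4]
  have h5 : ((ρ (g⁻¹ * a * g) - χ ⟨g⁻¹ * a * g, by simpa using hA.conj_mem a a.2 g⁻¹⟩ •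
      (1 : Module.End K V)) ^ k) v = 0 := hk
  rw [h5, map_zero]

/-- the weights that occur -/
def Om (ρ : Representation K G V) (A : Subgroup G) : Type (max u w) := {χ : A → K // wt ρ A χ ≠ ⊥}

theorem cj_ne_bot (ρ : Representation K G V) {A : Subgroup G} (hA : A.Normal)
    (hρ : Function.Injective ρ) (g : G) {χ : A → K} (hχ : wt ρ A χ ≠ ⊥) :
    wt ρ A (cj hA g χ) ≠ ⊥ := by
  intro h
  apply hχ
  rw [Submodule.eq_bot_iff]
  intro v hv
  have h1 := map_mem_wt ρ hA g χ hv
  rw [h, Submodule.mem_bot] at h1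
  have h2 : ρ g⁻¹ (ρ g v) = v := by
    rw [← Module.End.mul_apply, ← map_mul, inv_mul_cancel, map_one, Module.End.one_apply]
  rw [← h2, h1, map_zero]

/-- the action of `G` on the weights -/
def act (ρ : Representation K G V) {A : Subgroup G} (hA : A.Normal)
    (hρ : Function.Injective ρ) : G →* Equiv.Perm (Om ρ A) where
  toFun g :=
    { toFun := fun χ => ⟨cj hA g χ.1, cj_ne_bot ρ hA hρ g χ.2⟩
      invFun := fun χ => ⟨cj hA g⁻¹ χ.1, cj_ne_bot ρ hA hρ g⁻¹ χ.2⟩
      left_inv := fun χ => Subtype.ext (by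
        change cj hA g⁻¹ (cj hA g χ.1) = χ.1
        rw [← cj_mul, inv_mul_cancel, cj_one])
      right_inv := fun χ => Subtype.ext (by
        change cj hA g (cj hA g⁻¹ χ.1) = χ.1
        rw [← cj_mul, mul_inv_cancel, cj_one]) }
  map_one' := by
    apply Equiv.ext
    intro χ
    exact Subtype.ext (cj_one hA χ.1)
  map_mul' g h := by
    apply Equiv.ext
    intro χ
    exact Subtype.ext (cj_mul hA g h χ.1)

theorem mapsTo_of_ker (ρ : Representation K G V) {A : Subgroup G} (hA : A.Normal)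
    (hρ : Function.Injective ρ) (k : (act ρ hA hρ).ker) (χ : Om ρ A) :
    ∀ v ∈ wt ρ A χ.1, ρ k v ∈ wt ρ A χ.1 := by
  intro v hv
  have h1 := map_mem_wt ρ hA k χ.1 hv
  have h2 : act ρ hA hρ k = 1 := k.2
  have h3 : cj hA k χ.1 = χ.1 := congrArg (fun e : Equiv.Perm (Om ρ A) => (e χ).1) h2
  rwa [h3] at h1

/-- the representation of the kernel on a weight space -/
def res (ρ : Representation K G V) {A : Subgroup G} (hA : A.Normal)
    (hρ : Function.Injective ρ) (χ : Om ρ A) :
    Representation K (act ρ hA hρ).ker (wt ρ A χ.1) where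
  toFun k := (ρ k).restrict (mapsTo_of_ker ρ hA hρ k χ)
  map_one' := by
    apply LinearMap.ext
    intro v
    apply Subtype.ext
    simp [LinearMap.restrict_apply]
  map_mul' k l := by
    apply LinearMap.ext
    intro v
    apply Subtype.ext
    simp [LinearMap.restrict_apply]

theorem res_apply (ρ : Representation K G V) {A : Subgroup G} (hA : A.Normal)
    (hρ : Function.Injective ρ) (χ : Om ρ A) (k : (act ρ hA hρ).ker) (v : wt ρ A χ.1) :
    ((res ρ hA hρ χ k v : wt ρ A χ.1) : V) = ρ k v := rfl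

variable [FiniteDimensional K V]

theorem iSup_wt [IsAlgClosed K] (ρ : Representation K G V) {A : Subgroup G}
    (hc : ∀ a ∈ A, ∀ b ∈ A, a * b = b * a) : ⨆ χ : A → K, wt ρ A χ = ⊤ := by
  refine Module.End.iSup_iInf_maxGenEigenspace_eq_top_of_iSup_maxGenEigenspace_eq_top_of_commute
    (fun a : A => (ρ a : Module.End K V)) ?_ (fun a => Module.End.iSup_maxGenEigenspace_eq_top _)
  intro a b _
  change ρ a * ρ b = ρ b * ρ a
  rw [← map_mul, ← map_mul, hc a a.2 b b.2]

theorem indep_wt (ρ : Representation K G V) {A : Subgroup G}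
    (hc : ∀ a ∈ A, ∀ b ∈ A, a * b = b * a) : iSupIndep fun χ : A → K => wt ρ A χ := by
  refine Module.End.independent_iInf_maxGenEigenspace_of_forall_mapsTo
    (fun a : A => (ρ a : Module.End K V)) ?_
  intro a b μ
  refine Module.End.mapsTo_maxGenEigenspace_of_comm ?_ μ
  change ρ b * ρ a = ρ a * ρ b
  rw [← map_mul, ← map_mul, hc a a.2 b b.2]

theorem finite_Om (ρ : Representation K G V) {A : Subgroup G}
    (hc : ∀ a ∈ A, ∀ b ∈ A, a * b = b * a) : Finite (Om ρ A) :=
  (WellFoundedGT.finite_ne_bot_of_iSupIndep (indep_wt ρ hc)).to_subtype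

theorem iSup_Om [IsAlgClosed K] (ρ : Representation K G V) {A : Subgroup G}
    (hc : ∀ a ∈ A, ∀ b ∈ A, a * b = b * a) : ⨆ χ : Om ρ A, wt ρ A χ.1 = ⊤ := by
  rw [eq_top_iff, ← iSup_wt ρ hc]
  refine iSup_le (fun χ => ?_)
  by_cases h : wt ρ A χ = ⊥
  · rw [h]; exact bot_le
  · exact le_iSup (fun χ : Om ρ A => wt ρ A χ.1) ⟨χ, h⟩

theorem indep_Om (ρ : Representation K G V) {A : Subgroup G}
    (hc : ∀ a ∈ A, ∀ b ∈ A, a * b = b * a) : iSupIndep fun χ : Om ρ A => wt ρ A χ.1 :=
  (indep_wt ρ hc).comp Subtype.val_injective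

theorem sum_finrank [IsAlgClosed K] (ρ : Representation K G V) {A : Subgroup G}
    (hc : ∀ a ∈ A, ∀ b ∈ A, a * b = b * a) [Fintype (Om ρ A)] :
    ∑ χ : Om ρ A, finrank K (wt ρ A χ.1) = finrank K V := by
  classical
  have h := DirectSum.isInternal_submodule_of_iSupIndep_of_iSup_eq_top (indep_Om ρ hc)
    (iSup_Om ρ hc)
  rw [← Module.finrank_directSum]
  exact LinearEquiv.finrank_eq (LinearEquiv.ofBijective
    (DirectSum.coeLinearMap (fun χ : Om ρ A => wt ρ A χ.1)) h)


end Cfsg.Agent.H558.CP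
end

-- part: H558/CP/Impr
section
/-!
# The imprimitive step

`kerIndex`: `CB` for an irreducible linear group with a non-scalar abelian normal subgroup.
-/

set_option autoImplicit false

namespace Cfsg.Agent.H558.CP

open Module Subgroup

universe u v w

variable {K : Type w} [Field K] {G : Type u} [Group G] {V : Type v} [AddCommGroup V] [Module K V]

/-- irreducibility -/
def Irr (ρ : Representation K G V) : Prop :=
  Nontrivial V ∧ ∀ U : Submodule K V, (∀ g, ∀ u ∈ U, ρ g u ∈ U) → U = ⊥ ∨ U = ⊤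

/-- the stabilizer of a weight -/
def St (ρ : Representation K G V) {A : Subgroup G} (hA : A.Normal) (hρ : Function.Injective ρ)
    (χ : Om ρ A) : Subgroup G where
  carrier := {g | act ρ hA hρ g χ = χ}
  one_mem' := by simp
  mul_mem' := by
    intro a b ha hb
    change act ρ hA hρ (a * b) χ = χ
    rw [map_mul, Equiv.Perm.mul_apply]
    rw [show act ρ hA hρ b χ = χ from hb]
    exact ha
  inv_mem' := by
    intro a ha
    change act ρ hA hρ a⁻¹ χ = χ
    rw [map_inv, Equiv.Perm.inv_eq_iff_eq]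
    exact (show act ρ hA hρ a χ = χ from ha).symm

theorem mem_St (ρ : Representation K G V) {A : Subgroup G} (hA : A.Normal)
    (hρ : Function.Injective ρ) (χ : Om ρ A) (g : G) :
    g ∈ St ρ hA hρ χ ↔ act ρ hA hρ g χ = χ := Iff.rfl

theorem map_mem (ρ : Representation K G V) {A : Subgroup G} (hA : A.Normal)
    (hρ : Function.Injective ρ) (χ : Om ρ A) (g : G) {v : V} (hv : v ∈ wt ρ A χ.1) :
    ρ g v ∈ wt ρ A (act ρ hA hρ g χ).1 := map_mem_wt ρ hA g χ.1 hv

theorem mapsTo_St (ρ : Representation K G V) {A : Subgroup G} (hA : A.Normal)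
    (hρ : Function.Injective ρ) (χ : Om ρ A) (g : St ρ hA hρ χ) :
    ∀ v ∈ wt ρ A χ.1, ρ g v ∈ wt ρ A χ.1 := by
  intro v hv
  have h1 := map_mem ρ hA hρ χ g hv
  rwa [(mem_St ρ hA hρ χ g).mp g.2] at h1

/-- the representation of the stabilizer on the weight space -/
def resS (ρ : Representation K G V) {A : Subgroup G} (hA : A.Normal)
    (hρ : Function.Injective ρ) (χ : Om ρ A) :
    Representation K (St ρ hA hρ χ) (wt ρ A χ.1) where
  toFun k := (ρ k).restrict (mapsTo_St ρ hA hρ χ k)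
  map_one' := by
    apply LinearMap.ext
    intro v
    apply Subtype.ext
    simp [LinearMap.restrict_apply]
  map_mul' k l := by
    apply LinearMap.ext
    intro v
    apply Subtype.ext
    simp [LinearMap.restrict_apply]

theorem resS_apply (ρ : Representation K G V) {A : Subgroup G} (hA : A.Normal)
    (hρ : Function.Injective ρ) (χ : Om ρ A) (k : St ρ hA hρ χ) (v : wt ρ A χ.1) :
    ((resS ρ hA hρ χ k v : wt ρ A χ.1) : V) = ρ k v := rfl

theorem irr_resS [FiniteDimensional K V] (ρ : Representation K G V) {A : Subgroup G}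
    (hA : A.Normal) (hρ : Function.Injective ρ) (hc : ∀ a ∈ A, ∀ b ∈ A, a * b = b * a)
    (hirr : Irr ρ) (χ : Om ρ A) : Irr (resS ρ hA hρ χ) := by
  refine ⟨(Submodule.nontrivial_iff_ne_bot).mpr χ.2, fun U hU => ?_⟩
  set U' : Submodule K V := U.map (wt ρ A χ.1).subtype with hU'
  have hU'le : U' ≤ wt ρ A χ.1 := Submodule.map_subtype_le _ _
  set W : Submodule K V := ⨆ g : G, U'.map (ρ g) with hW
  have hWinv : ∀ g, ∀ u ∈ W, ρ g u ∈ W := by
    intro g u hu
    have h1 : W.map (ρ g) ≤ W := by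
      rw [hW, Submodule.map_iSup]
      refine iSup_le (fun h => ?_)
      rw [← Submodule.map_comp]
      have h2 : (ρ g).comp (ρ h) = ρ (g * h) := by rw [map_mul]; rfl
      rw [h2]
      exact le_iSup (fun g : G => U'.map (ρ g)) (g * h)
    exact h1 (Submodule.mem_map_of_mem hu)
  rcases hirr.2 W hWinv with h | h
  · left
    rw [Submodule.eq_bot_iff]
    intro x hx
    have h2 : (x : V) ∈ U'.map (ρ 1) := ⟨x, Submodule.mem_map_of_mem hx, by simp⟩
    have h3 : (x : V) ∈ W := le_iSup (fun g : G => U'.map (ρ g)) 1 h2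
    rw [h, Submodule.mem_bot] at h3
    exact Subtype.ext h3
  · right
    rw [eq_top_iff]
    intro v _
    -- `V = U' ⊔ W2`
    set W2 : Submodule K V := ⨆ (χ' : Om ρ A) (_ : χ' ≠ χ), wt ρ A χ'.1 with hW2
    have h1 : W ≤ U' ⊔ W2 := by
      rw [hW]
      refine iSup_le (fun g => ?_)
      by_cases hg : g ∈ St ρ hA hρ χ
      · refine le_trans ?_ le_sup_left
        rintro _ ⟨_, ⟨u, hu, rfl⟩, rfl⟩
        exact ⟨resS ρ hA hρ χ ⟨g, hg⟩ u, hU ⟨g, hg⟩ u hu, rfl⟩
      · refine le_trans ?_ le_sup_right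
        rintro _ ⟨u, hu, rfl⟩
        have h2 := map_mem ρ hA hρ χ g (hU'le hu)
        exact (le_iSup₂ (f := fun (χ' : Om ρ A) (_ : χ' ≠ χ) => wt ρ A χ'.1) _ hg) h2
    have h2 : (v : V) ∈ U' ⊔ W2 := h1 (by rw [h]; trivial)
    obtain ⟨u, hu, w, hw, huw⟩ := Submodule.mem_sup.mp h2
    have h3 : w ∈ wt ρ A χ.1 := by
      have h4 : w = v - u := by rw [← huw]; abel
      rw [h4]
      exact sub_mem v.2 (hU'le hu)
    have h4 := (indep_Om ρ hc) χ
    have h5 : w = 0 := by
      have h6 := (Submodule.disjoint_def.mp h4) w h3 hw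
      exact h6
    rw [h5, add_zero] at huw
    obtain ⟨u', hu', hu''⟩ := hu
    have : v = u' := Subtype.ext (by rw [← huw]; exact hu''.symm)
    rw [this]
    exact hu'


/-- the quotient of the stabilizer acting faithfully -/
abbrev Q (ρ : Representation K G V) {A : Subgroup G} (hA : A.Normal)
    (hρ : Function.Injective ρ) (χ : Om ρ A) : Type u :=
  St ρ hA hρ χ ⧸ (resS ρ hA hρ χ).ker

/-- its representation -/
def repQ (ρ : Representation K G V) {A : Subgroup G} (hA : A.Normal)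
    (hρ : Function.Injective ρ) (χ : Om ρ A) :
    Representation K (Q ρ hA hρ χ) (wt ρ A χ.1) :=
  QuotientGroup.lift (resS ρ hA hρ χ).ker (resS ρ hA hρ χ) le_rfl

theorem repQ_inj (ρ : Representation K G V) {A : Subgroup G} (hA : A.Normal)
    (hρ : Function.Injective ρ) (χ : Om ρ A) : Function.Injective (repQ ρ hA hρ χ) := by
  rw [injective_iff_map_eq_one]
  intro x hx
  obtain ⟨k, rfl⟩ := QuotientGroup.mk_surjective x
  rw [QuotientGroup.eq_one_iff]
  exact hx

theorem irr_repQ [FiniteDimensional K V] (ρ : Representation K G V) {A : Subgroup G}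
    (hA : A.Normal) (hρ : Function.Injective ρ) (hc : ∀ a ∈ A, ∀ b ∈ A, a * b = b * a)
    (hirr : Irr ρ) (χ : Om ρ A) : Irr (repQ ρ hA hρ χ) := by
  obtain ⟨h1, h2⟩ := irr_resS ρ hA hρ hc hirr χ
  refine ⟨h1, fun U hU => h2 U (fun g u hu => ?_)⟩
  exact hU (QuotientGroup.mk g) u hu

/-- **The imprimitive step.** -/
theorem cb_impr [IsAlgClosed K] [Finite G] [FiniteDimensional K V] (ρ : Representation K G V)
    {A : Subgroup G} (hA : A.Normal) (hρ : Function.Injective ρ)
    (hc : ∀ a ∈ A, ∀ b ∈ A, a * b = b * a) [Fintype (Om ρ A)] (b : Om ρ A → ℚ)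
    (hb0 : ∀ χ, 0 ≤ b χ) (hb : ∀ χ, CB (Q ρ hA hρ χ) (b χ)) :
    CB G ((∏ χ, b χ) * (Nat.card (act ρ hA hρ).range : ℚ) ^ 2) := by
  classical
  set N := (act ρ hA hρ).ker with hN
  have hNle : ∀ (χ : Om ρ A) (k : N), (k : G) ∈ St ρ hA hρ χ := fun χ k => by
    rw [mem_St, show act ρ hA hρ k = 1 from k.2]
    rfl
  let f : N →* ∀ χ, Q ρ hA hρ χ :=
    MonoidHom.mk' (fun k χ => QuotientGroup.mk (⟨k, hNle χ k⟩ : St ρ hA hρ χ)) (by
      intro k l
      funext χ
      rfl)
  have hf : Function.Injective f := by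
    rw [injective_iff_map_eq_one]
    intro k hk
    apply Subtype.ext
    apply hρ
    rw [Subgroup.coe_one, map_one]
    apply LinearMap.ext
    intro v
    have hv : v ∈ ⨆ χ : Om ρ A, wt ρ A χ.1 := by rw [iSup_Om ρ hc]; trivial
    induction hv using Submodule.iSup_induction' with
    | mem χ w hw =>
      have h1 : (QuotientGroup.mk (⟨k, hNle χ k⟩ : St ρ hA hρ χ) : Q ρ hA hρ χ) = 1 :=
        congrFun hk χ
      have h2 := (QuotientGroup.eq_one_iff _).mp h1
      have h3 : resS ρ hA hρ χ ⟨k, hNle χ k⟩ = 1 := h2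
      have h4 := congrArg (fun f : wt ρ A χ.1 →ₗ[K] wt ρ A χ.1 => ((f ⟨w, hw⟩ : _) : V)) h3
      exact h4
    | zero => simp
    | add x y _ _ hx hy => rw [map_add, hx, hy, map_add]
  have h1 := CB.pi (fun χ => Q ρ hA hρ χ) b hb0 hb
  have h2 := h1.of_injective (Finset.prod_nonneg (fun χ _ => hb0 χ)) f hf
  have h3 := CB.of_subgroup N h2 (Finset.prod_nonneg (fun χ _ => hb0 χ))
  rwa [hN, Subgroup.index_ker] at h3

end Cfsg.Agent.H558.CP
end

-- part: H558/CP/Num
section
/-!
# Numerical lemmas for the bound `BB`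
-/

set_option autoImplicit false

namespace Cfsg.Agent.H558.CP

/-- the bound for `|G| / k(G)` in dimension `n` -/
def BB : ℕ → ℚ
  | 0 => 1
  | 1 => 1
  | 2 => 6
  | n + 3 => 599 / 100 * 11 ^ (n + 1)

theorem BB_three_le {n : ℕ} (hn : 3 ≤ n) : BB n = 599 / 100 * 11 ^ (n - 2) := by
  obtain ⟨m, rfl⟩ := Nat.exists_eq_add_of_le' hn
  rfl

theorem BB_nonneg (n : ℕ) : 0 ≤ BB n := by
  rcases n with _ | _ | _ | n <;> simp only [BB] <;> positivity

theorem BB_le {m : ℕ} (hm : 1 ≤ m) : BB m ≤ 11 ^ (m - 1) := by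
  rcases m with _ | _ | _ | n
  · omega
  · norm_num [BB]
  · norm_num [BB]
  · simp only [BB]
    have : n + 1 + 1 + 1 - 1 = (n + 1) + 1 := by omega
    rw [this, pow_succ _ (n + 1)]
    have h : (0 : ℚ) < 11 ^ (n + 1) := by positivity
    generalize (11 : ℚ) ^ (n + 1) = x at h ⊢
    linarith

theorem BB_le' {m : ℕ} (hm : 2 ≤ m) : BB m ≤ 6 / 11 * 11 ^ (m - 1) := by
  rcases m with _ | _ | _ | n
  · omega
  · omega
  · norm_num [BB]
  · simp only [BB]
    have : n + 1 + 1 + 1 - 1 = (n + 1) + 1 := by omega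
    rw [this, pow_succ _ (n + 1)]
    have h : (0 : ℚ) < 11 ^ (n + 1) := by positivity
    generalize (11 : ℚ) ^ (n + 1) = x at h ⊢
    linarith

theorem prod_le {ι : Type*} [Fintype ι] (m : ι → ℕ) (hm : ∀ i, 1 ≤ m i) :
    ∏ i, BB (m i) ≤ 11 ^ (∑ i, m i - Fintype.card ι) := by
  calc ∏ i, BB (m i) ≤ ∏ i, (11 : ℚ) ^ (m i - 1) :=
        Finset.prod_le_prod (fun i _ => BB_nonneg _) (fun i _ => BB_le (hm i))
    _ = 11 ^ (∑ i, (m i - 1)) := Finset.prod_pow_eq_pow_sum _ _ _
    _ = _ := by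
        congr 1
        have h : ∑ i, (m i - 1) + Fintype.card ι = ∑ i, m i := by
          rw [← Finset.card_univ, Finset.card_eq_sum_ones, ← Finset.sum_add_distrib]
          exact Finset.sum_congr rfl (fun i _ => by have := hm i; omega)
        omega

theorem prod_le' {ι : Type*} [Fintype ι] (m : ι → ℕ) (hm : ∀ i, 1 ≤ m i) (i₀ : ι)
    (hi : 2 ≤ m i₀) : ∏ i, BB (m i) ≤ 6 / 11 * 11 ^ (∑ i, m i - Fintype.card ι) := by
  classical
  have h : ∑ i, (m i - 1) + Fintype.card ι = ∑ i, m i := by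
    rw [← Finset.card_univ, Finset.card_eq_sum_ones, ← Finset.sum_add_distrib]
    exact Finset.sum_congr rfl (fun i _ => by have := hm i; omega)
  have h2 : ∑ i, m i - Fintype.card ι = ∑ i, (m i - 1) := by omega
  rw [h2, ← Finset.prod_pow_eq_pow_sum, ← Finset.mul_prod_erase _ _ (Finset.mem_univ i₀),
    ← Finset.mul_prod_erase _ (fun i => (11 : ℚ) ^ (m i - 1)) (Finset.mem_univ i₀),
    ← mul_assoc]
  exact mul_le_mul (BB_le' hi) (Finset.prod_le_prod (fun i _ => BB_nonneg _)
    (fun i _ => BB_le (hm i))) (Finset.prod_nonneg (fun i _ => BB_nonneg _)) (by positivity)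

theorem sq_le_of_cube {S c : ℚ} (hc : 0 ≤ c) (h : (S ^ 3) ^ 2 ≤ c ^ 3) : S ^ 2 ≤ c := by
  have h1 : (S ^ 2) ^ 3 ≤ c ^ 3 := by
    calc (S ^ 2) ^ 3 = (S ^ 3) ^ 2 := by ring
      _ ≤ _ := h
  exact le_of_pow_le_pow_left₀ (by norm_num) hc h1

theorem num_gen {S r : ℕ} (hr : 2 ≤ r) (hS : S ^ 3 ≤ 24 ^ (r - 1)) :
    (S : ℚ) ^ 2 * (6 / 11) ≤ 599 / 100 * 11 ^ (r - 2) := by
  obtain ⟨k, rfl⟩ := Nat.exists_eq_add_of_le' hr
  have h1 : ((S : ℚ) ^ 3) ^ 2 ≤ (599 / 100 * 11 ^ k * (11 / 6)) ^ 3 := by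
    have h2 : ((S : ℚ) ^ 3) ≤ 24 ^ (k + 1) := by
      have : k + 2 - 1 = k + 1 := by omega
      rw [this] at hS
      exact_mod_cast hS
    calc ((S : ℚ) ^ 3) ^ 2 ≤ (24 ^ (k + 1)) ^ 2 := by gcongr
      _ = 576 * 576 ^ k := by rw [← pow_mul, mul_comm, pow_mul, pow_succ]; norm_num; ring
      _ ≤ 1324 * 1331 ^ k := by
          gcongr <;> norm_num
      _ ≤ (599 / 100 * (11 / 6)) ^ 3 * (11 ^ 3) ^ k := by
          norm_num
      _ = _ := by rw [← pow_mul, mul_comm 3 k, pow_mul]; ring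
  have h3 := sq_le_of_cube (by positivity) h1
  simp only [Nat.add_sub_cancel]
  linarith

theorem num_one {S r : ℕ} (hr : 4 ≤ r) (hS : S ^ 3 ≤ 24 ^ (r - 1)) :
    (S : ℚ) ^ 2 ≤ 599 / 100 * 11 ^ (r - 2) := by
  obtain ⟨k, rfl⟩ := Nat.exists_eq_add_of_le' hr
  apply sq_le_of_cube (by positivity)
  have h2 : ((S : ℚ) ^ 3) ≤ 24 ^ (k + 3) := by
    have : k + 4 - 1 = k + 3 := by omega
    rw [this] at hS
    exact_mod_cast hS
  have h3 : k + 4 - 2 = k + 2 := by omega
  rw [h3]
  calc ((S : ℚ) ^ 3) ^ 2 ≤ (24 ^ (k + 3)) ^ 2 := by gcongr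
    _ = 576 ^ 3 * 576 ^ k := by rw [← pow_mul, mul_comm, pow_mul, pow_add]; norm_num; ring
    _ ≤ ((599 / 100) ^ 3 * 1331 ^ 2) * 1331 ^ k := by
        gcongr <;> norm_num
    _ = (599 / 100 * 11 ^ (k + 2)) ^ 3 := by
        have : (1331 : ℚ) = 11 ^ 3 := by norm_num
        rw [this, ← pow_mul, ← pow_mul, mul_pow, ← pow_mul, mul_assoc, ← pow_add]
        congr 2
        ring

end Cfsg.Agent.H558.CP
end
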