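import Mathlib
import Cfsg.Agent.H558.CP.Impr_mg
set_option linter.all false

/-!
# Counting classes over classes of `G / Z(G)`
-/

set_option autoImplicit false

namespace Cfsg.Agent.H558.CP

open Subgroup

variable {G : Type*} [Group G]

/-- the central multiples of `x` conjugate to `x` -/
def Sx (x : G) : Subgroup (center G) where
  carrier := {z | IsConj x ((z : G) * x)}
  one_mem' := by
    change IsConj x (((1 : center G) : G) * x)
    rw [Subgroup.coe_one, one_mul]
  mul_mem' := by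
    intro z w hz hw
    obtain ⟨g, hg⟩ := isConj_iff.mp (show IsConj x ((z : G) * x) from hz)
    obtain ⟨h, hh⟩ := isConj_iff.mp (show IsConj x ((w : G) * x) from hw)
    refine isConj_iff.mpr ⟨h * g, ?_⟩
    have h1 : (h * g) * x * (h * g)⁻¹ = h * (g * x * g⁻¹) * h⁻¹ := by group
    have h2 : h * (z : G) = (z : G) * h := mem_center_iff.mp z.2 h
    have h3 : ((z * w : center G) : G) = (z : G) * (w : G) := rfl
    rw [h1, hg, h3]
    calc h * ((z : G) * x) * h⁻¹ = (h * (z : G)) * x * h⁻¹ := by group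
      _ = (z : G) * (h * x * h⁻¹) := by rw [h2]; group
      _ = _ := by rw [hh]; group
  inv_mem' := by
    intro z hz
    obtain ⟨g, hg⟩ := isConj_iff.mp (show IsConj x ((z : G) * x) from hz)
    refine isConj_iff.mpr ⟨g⁻¹, ?_⟩
    have h2 : g⁻¹ * (z : G) = (z : G) * g⁻¹ := mem_center_iff.mp z.2 g⁻¹
    have h3 : ((z⁻¹ : center G) : G) = (z : G)⁻¹ := rfl
    rw [h3]
    have h4 : x = g⁻¹ * ((z : G) * x) * g := by rw [← hg]; group
    have h5 : x = (z : G) * (g⁻¹ * x * g) := by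
      calc x = g⁻¹ * ((z : G) * x) * g := h4
        _ = (g⁻¹ * (z : G)) * x * g := by group
        _ = _ := by rw [h2]; group
    calc g⁻¹ * x * g⁻¹⁻¹ = (z : G)⁻¹ * ((z : G) * (g⁻¹ * x * g)) := by group
      _ = (z : G)⁻¹ * x := by rw [← h5]

theorem mem_Sx {x : G} {z : center G} : z ∈ Sx x ↔ IsConj x ((z : G) * x) := Iff.rfl

theorem Sx_one : Sx (1 : G) = ⊥ := by
  rw [eq_bot_iff]
  intro z hz
  rw [mem_Sx, mul_one] at hz
  rw [Subgroup.mem_bot]
  exact Subtype.ext (isConj_one_right.mp hz)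

theorem mul_conj (x : G) (z w : center G) (h : IsConj ((z : G) * x) ((w : G) * x)) :
    z⁻¹ * w ∈ Sx x := by
  rw [mem_Sx]
  obtain ⟨g, hg⟩ := isConj_iff.mp h
  refine isConj_iff.mpr ⟨g, ?_⟩
  have h2 : g * (z : G)⁻¹ = (z : G)⁻¹ * g := mem_center_iff.mp (inv_mem z.2) g
  have h3 : ((z⁻¹ * w : center G) : G) = (z : G)⁻¹ * (w : G) := rfl
  rw [h3]
  calc g * x * g⁻¹ = (g * (z : G)⁻¹) * ((z : G) * x) * g⁻¹ := by group
    _ = (z : G)⁻¹ * (g * ((z : G) * x) * g⁻¹) := by rw [h2]; group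
    _ = _ := by rw [hg]; group

variable [Finite G]

/-- **The class count.** -/
theorem count {ι : Type*} [Fintype ι] (x : ι → G)
    (hx : ∀ i j, IsConj (QuotientGroup.mk' (center G) (x i)) (QuotientGroup.mk' (center G) (x j)) →
      i = j) (t : ι → ℚ) (ht0 : ∀ i, 0 < t i) (ht : ∀ i, (Nat.card (Sx (x i)) : ℚ) ≤ t i) :
    (Nat.card (center G) : ℚ) * ∑ i, 1 / t i ≤ Nat.card (ConjClasses G) := by
  classical
  let f : (Σ i, center G ⧸ Sx (x i)) → ConjClasses G := fun q =>
    ConjClasses.mk (((q.2.out : center G) : G) * x q.1)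
  have hf : Function.Injective f := by
    rintro ⟨i, a⟩ ⟨j, b⟩ hab
    have h1 : IsConj (((a.out : center G) : G) * x i) (((b.out : center G) : G) * x j) :=
      ConjClasses.mk_eq_mk_iff_isConj.mp hab
    have h2 := (QuotientGroup.mk' (center G)).map_isConj h1
    have h3 : ∀ (z : center G) (y : G), QuotientGroup.mk' (center G) ((z : G) * y) =
        QuotientGroup.mk' (center G) y := by
      intro z y
      rw [map_mul]
      have : QuotientGroup.mk' (center G) (z : G) = 1 := (QuotientGroup.eq_one_iff _).mpr z.2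
      rw [this, one_mul]
    rw [h3, h3] at h2
    obtain rfl := hx i j h2
    have h4 := mul_conj (x i) _ _ h1
    have h5 : a = b := by
      rw [← QuotientGroup.out_eq' a, ← QuotientGroup.out_eq' b, QuotientGroup.eq]
      exact h4
    rw [h5]
  have h1 := Nat.card_le_card_of_injective f hf
  rw [Nat.card_sigma] at h1
  have h2 : (∑ i, (Nat.card (center G ⧸ Sx (x i)) : ℚ)) ≤ Nat.card (ConjClasses G) := by
    exact_mod_cast h1
  refine le_trans ?_ h2
  rw [Finset.mul_sum]
  refine Finset.sum_le_sum (fun i _ => ?_)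
  have h3 := (Sx (x i)).card_mul_index
  have h4 : (Nat.card (Sx (x i)) : ℚ) * (Sx (x i)).index = Nat.card (center G) := by
    exact_mod_cast h3
  have h5 : (Nat.card (center G ⧸ Sx (x i)) : ℚ) = (Sx (x i)).index := rfl
  rw [h5, ← h4, mul_one_div, div_le_iff₀ (ht0 i), mul_comm]
  exact mul_le_mul_of_nonneg_left (ht i) (Nat.cast_nonneg _)

/-- If `x ^ k` is central then `z ^ k = 1` for `z ∈ S_x`. -/
theorem pow_eq_one_of_mem {x : G} {k : ℕ} (hk : x ^ k ∈ center G) {z : center G} (hz : z ∈ Sx x) :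
    z ^ k = 1 := by
  obtain ⟨g, hg⟩ := isConj_iff.mp (mem_Sx.mp hz)
  have h1 : (g * x * g⁻¹) ^ k = x ^ k := by
    rw [conj_pow, mem_center_iff.mp hk g]
    group
  have h2 : ((z : G) * x) ^ k = (z : G) ^ k * x ^ k := by
    have h3 : Commute (z : G) x := (mem_center_iff.mp z.2 x).symm
    exact h3.mul_pow k
  rw [hg, h2] at h1
  have h3 : (z : G) ^ k = 1 := by
    have := mul_right_cancel (h1.trans (one_mul (x ^ k)).symm)
    exact this
  exact Subtype.ext (by rw [Subgroup.coe_pow, h3]; rfl)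

/-- `S_x = 1` if `C_{G/Z}(x) = ⟨x⟩`. -/
theorem Sx_eq_bot_of_self {x : G} (h : ∀ g : G, (∃ z ∈ center G, g * x * g⁻¹ = z * x) →
    ∃ i : ℤ, ∃ z ∈ center G, g = x ^ i * z) : Sx x = ⊥ := by
  rw [eq_bot_iff]
  intro z hz
  obtain ⟨g, hg⟩ := isConj_iff.mp (mem_Sx.mp hz)
  obtain ⟨i, w, hw, rfl⟩ := h g ⟨z, z.2, hg⟩
  have h1 : (x ^ i * w) * x * (x ^ i * w)⁻¹ = x := by
    have h2 : w * x = x * w := (mem_center_iff.mp hw x).symm
    calc (x ^ i * w) * x * (x ^ i * w)⁻¹ = x ^ i * (w * x) * w⁻¹ * (x ^ i)⁻¹ := by group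
      _ = x := by rw [h2]; group
  rw [h1] at hg
  rw [Subgroup.mem_bot]
  have h3 : (z : G) = 1 := by
    have : (1 : G) * x = (z : G) * x := by rw [one_mul]; exact hg
    exact (mul_right_cancel this).symm
  exact Subtype.ext h3

end Cfsg.Agent.H558.CP
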