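import Mathlib
import Cfsg.Agent.H558.CP.Main
set_option linter.all false

/-!
# Irreducible solvable linear groups over `F_p`
-/

set_option autoImplicit false

namespace Cfsg.Agent.H558.CP

open Module Subgroup

universe u v w

variable {F : Type w} [Field F] {G : Type u} [Group G] {V : Type v} [AddCommGroup V] [Module F V]

/-- extension of scalars, in coordinates -/
noncomputable def ext (ρ : Representation F G V) {ι : Type} [Fintype ι] [DecidableEq ι]
    (b : Basis ι F V) (K : Type w) [Field K] [Algebra F K] : Representation K G (ι → K) :=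
  ((Matrix.toLinAlgEquiv' : Matrix ι ι K ≃ₐ[K] ((ι → K) →ₗ[K] ι → K)) :
      Matrix ι ι K →* ((ι → K) →ₗ[K] ι → K)).comp
    ((((algebraMap F K).mapMatrix : Matrix ι ι F →+* Matrix ι ι K) :
        Matrix ι ι F →* Matrix ι ι K).comp
      (((LinearMap.toMatrixAlgEquiv b : Module.End F V ≃ₐ[F] Matrix ι ι F) :
        Module.End F V →* Matrix ι ι F).comp ρ))

variable {ι : Type} [Fintype ι] [DecidableEq ι] (b : Basis ι F V) (K : Type w) [Field K]
  [Algebra F K] (ρ : Representation F G V)

theorem ext_apply (g : G) (w : ι → K) (i : ι) :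
    ext ρ b K g w i = ∑ j, (LinearMap.toMatrixAlgEquiv b (ρ g) i j) • w j := by
  change (((LinearMap.toMatrixAlgEquiv b (ρ g)).map (algebraMap F K)).mulVec w) i = _
  simp only [Matrix.mulVec, dotProduct, Matrix.map_apply, Algebra.smul_def]

theorem repr_apply (g : G) (v : V) (i : ι) :
    b.repr (ρ g v) i = ∑ j, (LinearMap.toMatrixAlgEquiv b (ρ g) i j) * b.repr v j := by
  have h1 := LinearMap.toMatrix_mulVec_repr b b (ρ g) v
  have h2 := congrFun h1 i
  rw [← h2]
  rfl

/-- the functional `φ` applied to coordinates commutes with the action -/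
theorem descend (g : G) (w : ι → K) (φ : K →ₗ[F] F) (hw : ext ρ b K g w = w) :
    ρ g (∑ i, φ (w i) • b i) = ∑ i, φ (w i) • b i := by
  apply b.repr.injective
  apply Finsupp.ext
  intro i
  have hrep : ∀ j, b.repr (∑ i, φ (w i) • b i) j = φ (w j) := by
    intro j
    exact congrFun (Module.Basis.repr_sum_self b (fun i => φ (w i))) j
  rw [repr_apply, hrep]
  have h1 : w i = ∑ j, (LinearMap.toMatrixAlgEquiv b (ρ g) i j) • w j := by
    rw [← ext_apply, hw]
  have h2 : φ (w i) = ∑ j, (LinearMap.toMatrixAlgEquiv b (ρ g) i j) * φ (w j) := by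
    conv_lhs => rw [h1]
    rw [map_sum]
    refine Finset.sum_congr rfl (fun j _ => ?_)
    rw [map_smul, smul_eq_mul]
  rw [h2]
  exact Finset.sum_congr rfl (fun j _ => by rw [hrep])

theorem ext_faithful (hρ : Function.Injective ρ) (hirr : Irr ρ) (N : Subgroup G) (hN : N.Normal)
    (w : ι → K) (hw0 : w ≠ 0) (hw : ∀ g ∈ N, ext ρ b K g w = w) : N = ⊥ := by
  obtain ⟨i, hi⟩ := Function.ne_iff.mp hw0
  obtain ⟨φ, hφ⟩ := Module.Projective.exists_dual_ne_zero F hi
  have h1 : (∑ i, φ (w i) • b i) ∈ fixS ρ N := fun g hg => descend b K ρ g w φ (hw g hg)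
  have h2 : (∑ i, φ (w i) • b i) ≠ 0 := by
    intro h
    apply hφ
    have h3 := congrArg (fun v => b.repr v i) h
    simp only [map_zero, Finsupp.coe_zero, Pi.zero_apply] at h3
    rwa [Module.Basis.repr_sum_self] at h3
  rcases hirr.2 (fixS ρ N) (fixS_inv ρ N hN) with h | h
  · rw [h, Submodule.mem_bot] at h1
    exact absurd h1 h2
  · rw [eq_bot_iff]
    intro x hx
    rw [Subgroup.mem_bot]
    apply hρ
    rw [map_one]
    ext w
    have h1 : w ∈ fixS ρ N := by rw [h]; trivial
    exact h1 x hx

section sub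

variable {X : Type v} [AddCommGroup X] [Module K X] (σ : Representation K G X)

/-- a subrepresentation -/
def subrep (W : Submodule K X) (hW : ∀ g, ∀ w ∈ W, σ g w ∈ W) : Representation K G W where
  toFun g := (σ g).restrict (hW g)
  map_one' := by
    apply LinearMap.ext
    intro v
    apply Subtype.ext
    simp [LinearMap.restrict_apply]
  map_mul' k l := by
    apply LinearMap.ext
    intro v
    apply Subtype.ext
    simp [LinearMap.restrict_apply]

theorem subrep_apply (W : Submodule K X) (hW : ∀ g, ∀ w ∈ W, σ g w ∈ W) (g : G) (w : W) :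
    ((subrep K σ W hW g w : W) : X) = σ g w := rfl

theorem exists_irr_sub [FiniteDimensional K X] [Nontrivial X] :
    ∃ (W : Submodule K X) (hW : ∀ g, ∀ w ∈ W, σ g w ∈ W), Irr (subrep K σ W hW) := by
  obtain ⟨W, ⟨hW0, hW⟩, hmin⟩ := (wellFounded_lt (α := Submodule K X)).has_min
    {W | W ≠ ⊥ ∧ ∀ g, ∀ w ∈ W, σ g w ∈ W} ⟨⊤, top_ne_bot, fun _ _ _ => trivial⟩
  refine ⟨W, hW, (Submodule.nontrivial_iff_ne_bot).mpr hW0, fun U hU => ?_⟩
  by_cases hU0 : U = ⊥
  · exact Or.inl hU0
  right
  have h1 : ¬ U.map W.subtype < W := by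
    apply hmin
    refine ⟨?_, ?_⟩
    · intro h
      apply hU0
      apply Submodule.map_injective_of_injective W.injective_subtype
      rw [h, Submodule.map_bot]
    · rintro g _ ⟨u, hu, rfl⟩
      exact ⟨subrep K σ W hW g u, hU g u hu, rfl⟩
  have h2 : U.map W.subtype = W := by
    rcases (Submodule.map_subtype_le W U).lt_or_eq with h | h
    · exact absurd h h1
    · exact h
  rw [eq_top_iff]
  intro u _
  have h3 : (u : X) ∈ U.map W.subtype := by rw [h2]; exact u.2
  obtain ⟨u', hu', h4⟩ := h3
  have : u' = u := Subtype.ext h4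
  rwa [← this]

theorem center_scalar [IsAlgClosed K] [FiniteDimensional K X] (hirr : Irr σ) :
    ∀ z ∈ center G, ∃ c : K, ∀ v, σ z v = c • v := by
  intro z hz
  have := hirr.1
  obtain ⟨c, hc⟩ := Module.End.exists_eigenvalue (σ z)
  refine ⟨c, ?_⟩
  have hinv : ∀ g, ∀ u ∈ Module.End.eigenspace (σ z) c, σ g u ∈ Module.End.eigenspace (σ z) c := by
    intro g u hu
    rw [Module.End.mem_eigenspace_iff] at hu ⊢
    rw [← Module.End.mul_apply, ← map_mul, ← mem_center_iff.mp hz g, map_mul,
      Module.End.mul_apply, hu, map_smul]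
  rcases hirr.2 _ hinv with h | h
  · exact absurd h hc
  · intro v
    have hv : v ∈ Module.End.eigenspace (σ z) c := by rw [h]; trivial
    exact Module.End.mem_eigenspace_iff.mp hv

end sub

/-- the bound is monotone -/
theorem BB_mono {m n : ℕ} (hm : 1 ≤ m) (h : m ≤ n) : BB m ≤ BB n := by
  rcases Nat.lt_or_ge n 3 with h3 | h3
  · have h4 : n = 1 ∨ n = 2 := by omega
    have h5 : m = 1 ∨ m = 2 := by omega
    rcases h4 with rfl | rfl <;> rcases h5 with rfl | rfl <;> (norm_num [BB]; try omega)
  · rw [BB_three_le h3]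
    rcases Nat.lt_or_ge m 3 with h5 | h5
    · have h6 : BB m ≤ 6 := by
        have h7 : m = 1 ∨ m = 2 := by omega
        rcases h7 with rfl | rfl <;> norm_num [BB]
      have h7 : (11 : ℚ) ^ 1 ≤ 11 ^ (n - 2) := pow_le_pow_right₀ (by norm_num) (by omega)
      linarith
    · rw [BB_three_le h5]
      have h7 : (11 : ℚ) ^ (m - 2) ≤ 11 ^ (n - 2) := pow_le_pow_right₀ (by norm_num) (by omega)
      linarith

/-- **Irreducible solvable linear groups over `F_p`.** -/
theorem over_Fp (p : ℕ) [hp : Fact p.Prime] {H : Type u} [Group H] [Finite H]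
    [Group.IsSolvable H] {V : Type v} [AddCommGroup V] [Module (ZMod p) V]
    [FiniteDimensional (ZMod p) V] (ρ : Representation (ZMod p) H V)
    (hρ : Function.Injective ρ) (hirr : Irr ρ) :
    CB H (BB (finrank (ZMod p) V)) ∧ (finrank (ZMod p) V = 2 → CB H (11 / 2) ∨
      ∃ m d : ℕ, Nat.card H = 24 * m ∧ 4 * m ≤ Nat.card (ConjClasses H) ∧ m * d = p - 1) := by
  classical
  have hnt := hirr.1
  set n := finrank (ZMod p) V with hn
  have hn1 : 1 ≤ n := Module.finrank_pos
  let b : Basis (Fin n) (ZMod p) V := Module.finBasis (ZMod p) V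
  let K := AlgebraicClosure (ZMod p)
  have hchar : CharP K p := charP_of_injective_algebraMap (algebraMap (ZMod p) K).injective p
  have : Nontrivial (Fin n → K) := by
    have : Nonempty (Fin n) := ⟨⟨0, hn1⟩⟩
    infer_instance
  obtain ⟨W, hW, hWirr⟩ := exists_irr_sub K (ext ρ b K)
  set σ := subrep K (ext ρ b K) W hW with hσ
  have hσinj : Function.Injective σ := by
    rw [injective_iff_map_eq_one]
    intro x hx
    have hk : x ∈ MonoidHom.ker σ := hx
    obtain ⟨w, hw⟩ := @exists_ne W hWirr.1 0
    have h1 := ext_faithful b K ρ hρ hirr (MonoidHom.ker σ) inferInstance (w : Fin n → K)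
      (fun h => hw (Subtype.ext h)) (fun g hg => by
        have h2 : σ g = 1 := hg
        have h3 := congrArg (fun f : W →ₗ[K] W => ((f w : W) : Fin n → K)) h2
        exact h3)
    rw [h1] at hk
    exact hk
  have hWn : finrank K W ≤ n := by
    have h1 := Submodule.finrank_le W
    rwa [Module.finrank_fin_fun] at h1
  have hW1 : 1 ≤ finrank K W := by
    have := hWirr.1
    exact Module.finrank_pos
  obtain ⟨h1, h2⟩ := main_bd (K := K) p (finrank K W) hW1 H W σ hσinj hWirr rfl
  refine ⟨h1.mono (BB_mono hW1 hWn), fun hn2 => ?_⟩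
  rcases Nat.lt_or_ge (finrank K W) 2 with h3 | h3
  · have h4 : finrank K W = 1 := by omega
    rw [h4] at h1
    exact Or.inl (h1.mono (by norm_num [BB]))
  · have h4 : finrank K W = 2 := by omega
    rcases h2 h4 with h5 | ⟨h5, h6⟩
    · exact Or.inl h5
    right
    have hWtop : W = ⊤ := Submodule.eq_top_of_finrank_eq (by rw [h4, Module.finrank_fin_fun, hn2])
    have hsc : ∀ z ∈ center H, ∃ c : ZMod p, ∀ v, ρ z v = c • v := by
      intro z hz
      obtain ⟨c, hc⟩ := center_scalar K σ hWirr z hz
      have hc' : ∀ w : Fin n → K, ext ρ b K z w = c • w := by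
        intro w
        have h7 := hc ⟨w, by rw [hWtop]; trivial⟩
        exact congrArg Subtype.val h7
      have hent : ∀ i j, algebraMap (ZMod p) K (LinearMap.toMatrixAlgEquiv b (ρ z) i j) =
          if i = j then c else 0 := by
        intro i j
        have h7 := congrFun (hc' (Pi.single j 1)) i
        rw [ext_apply, Finset.sum_eq_single j] at h7
        · rw [Pi.single_eq_same, Algebra.smul_def, mul_one] at h7
          rw [h7, Pi.smul_apply, smul_eq_mul, Pi.single_apply]
          split_ifs <;> simp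
        · intro k _ hk
          rw [Pi.single_eq_of_ne hk, smul_zero]
        · intro h
          exact absurd (Finset.mem_univ _) h
      let i₀ : Fin n := ⟨0, hn1⟩
      set c₀ := LinearMap.toMatrixAlgEquiv b (ρ z) i₀ i₀ with hc₀
      have hcc : algebraMap (ZMod p) K c₀ = c := by
        rw [hent, if_pos rfl]
      have hent' : ∀ i j, LinearMap.toMatrixAlgEquiv b (ρ z) i j = if i = j then c₀ else 0 := by
        intro i j
        apply (algebraMap (ZMod p) K).injective
        rw [hent]
        split_ifs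
        · exact hcc.symm
        · exact (map_zero _).symm
      refine ⟨c₀, fun v => ?_⟩
      apply b.repr.injective
      apply Finsupp.ext
      intro i
      rw [repr_apply, Finset.sum_eq_single i]
      · rw [hent', if_pos rfl, map_smul, Finsupp.smul_apply, smul_eq_mul]
      · intro k _ hk
        rw [hent', if_neg (Ne.symm hk), zero_mul]
      · intro h
        exact absurd (Finset.mem_univ _) h
    obtain ⟨s⟩ := exists_scal ρ hρ hsc
    have h7 : Nat.card (center H) ∣ p - 1 := by
      have hinj : Function.Injective s.χ.toHomUnits := by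
        intro x y hxy
        apply s.inj
        have := congrArg Units.val hxy
        simpa using this
      have := card_dvd_of_inj _ hinj
      rwa [Nat.card_eq_fintype_card (α := (ZMod p)ˣ), ZMod.card_units] at this
    obtain ⟨d, hd⟩ := h7
    exact ⟨_, d, h5, h6, hd.symm⟩

end Cfsg.Agent.H558.CP
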