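import Mathlib
set_option linter.all false

/-!
# Elements of `S_4`
-/

set_option autoImplicit false

namespace Cfsg.Agent.H558.CP

open Subgroup

theorem four_elems {Q : Type*} [Group Q] (N : Subgroup Q) (h4 : Nat.card N = 4)
    (hsq : ∀ n ∈ N, n * n = 1) {a b : Q} (ha : a ∈ N) (hb : b ∈ N) (ha1 : a ≠ 1) (hb1 : b ≠ 1)
    (hab : a ≠ b) (n : Q) (hn : n ∈ N) : n = 1 ∨ n = a ∨ n = b ∨ n = a * b := by
  have hfin : Finite N := Nat.finite_of_card_ne_zero (by omega)
  let f : Fin 4 → N := ![⟨1, one_mem _⟩, ⟨a, ha⟩, ⟨b, hb⟩, ⟨a * b, mul_mem ha hb⟩]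
  have hab1 : a * b ≠ 1 := by
    intro h
    apply hab
    have h1 := hsq b hb
    exact mul_right_cancel (h.trans h1.symm)
  have haba : a * b ≠ a := by
    intro h
    exact hb1 (mul_left_cancel (h.trans (mul_one a).symm))
  have habb : a * b ≠ b := by
    intro h
    exact ha1 (mul_right_cancel (h.trans (one_mul b).symm))
  have hf : Function.Injective f := by
    intro i j hij
    have hij' := congrArg Subtype.val hij
    fin_cases i <;> fin_cases j <;> first | rfl | (exfalso; simp [f] at hij'; tauto)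
  have hbij := hf.bijective_of_nat_card_le (by rw [h4]; simp)
  obtain ⟨i, hi⟩ := hbij.2 ⟨n, hn⟩
  have hi' := congrArg Subtype.val hi
  fin_cases i <;> simp [f] at hi' <;> subst hi' <;> tauto

theorem s4_elements {Q : Type*} [Group Q] [Finite Q] (N : Subgroup Q) [N.Normal]
    (h24 : Nat.card Q = 24) (h4 : Nat.card N = 4) (hsq : ∀ n ∈ N, n * n = 1)
    (hself : ∀ g, (∀ n ∈ N, g * n = n * g) → g ∈ N) :
    ∃ a w x t : Q, a ∈ N ∧ a ≠ 1 ∧ w ∉ N ∧ w * w = 1 ∧ x ∉ N ∧ x * x = a ∧
      (∀ g, g * x = x * g → g ∈ zpowers x) ∧ t ≠ 1 ∧ t ^ 3 = 1 := by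
  classical
  have hcomm : ∀ m ∈ N, ∀ n ∈ N, m * n = n * m := by
    intro m hm n hn
    have h1 := hsq _ (mul_mem hm hn)
    have h2 := hsq m hm
    have h3 := hsq n hn
    have h4 : m * n = (m * n)⁻¹ := eq_inv_of_mul_eq_one_left h1
    rw [h4, mul_inv_rev, (eq_inv_of_mul_eq_one_left h2).symm,
      (eq_inv_of_mul_eq_one_left h3).symm]
  have hinvN : ∀ n ∈ N, n⁻¹ = n := fun n hn => (eq_inv_of_mul_eq_one_left (hsq n hn)).symm
  -- an element of order 3
  obtain ⟨t, ht⟩ := exists_prime_orderOf_dvd_card' (G := Q) 3 (by rw [h24]; norm_num)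
  have ht1 : t ≠ 1 := by
    rintro rfl
    rw [orderOf_one] at ht
    omega
  have ht3 : t ^ 3 = 1 := by rw [← ht]; exact pow_orderOf_eq_one t
  -- an element of order 2 modulo `N`
  have hidx : Nat.card (Q ⧸ N) = 6 := by
    have h1 := N.card_mul_index
    rw [h4, h24] at h1
    change N.index = 6
    omega
  obtain ⟨q, hq⟩ := exists_prime_orderOf_dvd_card' (G := Q ⧸ N) 2 (by rw [hidx]; norm_num)
  obtain ⟨g, rfl⟩ := QuotientGroup.mk_surjective q
  have hgN : g ∉ N := by
    intro h
    rw [(QuotientGroup.eq_one_iff g).mpr h, orderOf_one] at hq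
    omega
  have hg2 : g * g ∈ N := by
    rw [← QuotientGroup.eq_one_iff, QuotientGroup.mk_mul, ← pow_two, ← hq]
    exact pow_orderOf_eq_one _
  have hcj : ∀ h n, n ∈ N → h * n * h⁻¹ ∈ N := fun h n hn => Normal.conj_mem inferInstance n hn h
  -- `a`
  have hexa : ∃ a ∈ N, a ≠ 1 ∧ g * a = a * g := by
    obtain ⟨a₀, ha₀, ha₁⟩ : ∃ a ∈ N, a ≠ 1 := by
      by_contra hcon
      push Not at hcon
      have : N = ⊥ := (eq_bot_iff_forall N).mpr hcon
      rw [this] at h4
      simp at h4
    by_cases hc : g * a₀ = a₀ * g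
    · exact ⟨a₀, ha₀, ha₁, hc⟩
    · have ha' := hcj g a₀ ha₀
      refine ⟨a₀ * (g * a₀ * g⁻¹), mul_mem ha₀ ha', ?_, ?_⟩
      · intro h
        apply hc
        have h1 : g * a₀ * g⁻¹ = a₀ := by
          rw [← hinvN a₀ ha₀]
          rw [hinvN a₀ ha₀]
          exact mul_left_cancel (h.trans (hsq a₀ ha₀).symm)
        calc g * a₀ = (g * a₀ * g⁻¹) * g := by group
          _ = a₀ * g := by rw [h1]
      · have h1 : g * g * a₀ * (g * g)⁻¹ = a₀ := by
          rw [hcomm _ hg2 _ ha₀]
          group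
        calc g * (a₀ * (g * a₀ * g⁻¹)) = (g * a₀ * g⁻¹) * (g * g * a₀ * (g * g)⁻¹) * g := by group
          _ = (g * a₀ * g⁻¹) * a₀ * g := by rw [h1]
          _ = a₀ * (g * a₀ * g⁻¹) * g := by rw [hcomm _ ha' _ ha₀]
  obtain ⟨a, haN, ha1, hga⟩ := hexa
  obtain ⟨b, hbN, hgb⟩ : ∃ b ∈ N, g * b ≠ b * g := by
    by_contra hcon
    push Not at hcon
    exact hgN (hself g hcon)
  have hb1 : b ≠ 1 := by
    rintro rfl
    simp at hgb
  have hab : a ≠ b := by
    rintro rfl
    exact hgb hga
  have hel := four_elems N h4 hsq haN hbN ha1 hb1 hab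
  -- `C_N(g) = {1, a}`
  have hCN : ∀ n ∈ N, g * n = n * g → n = 1 ∨ n = a := by
    intro n hn hgn
    rcases hel n hn with h | h | h | h
    · exact Or.inl h
    · exact Or.inr h
    · rw [h] at hgn
      exact absurd hgn hgb
    · exfalso
      apply hgb
      have h1 : b = a * n := by rw [h, ← mul_assoc, hsq a haN, one_mul]
      rw [h1, ← mul_assoc, hga, mul_assoc, hgn, mul_assoc]
  -- an element centralizing `a` maps `b` to `b` or `a b`
  have hmap : ∀ h : Q, h * a = a * h → h * b * h⁻¹ = b ∨ h * b * h⁻¹ = a * b := by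
    intro h hha
    rcases hel _ (hcj h b hbN) with h1 | h1 | h1 | h1
    · exact absurd (by simpa using h1) hb1
    · exfalso
      apply hab
      have h2 : h * a * h⁻¹ = a := by rw [hha]; group
      have h3 : h * a * h⁻¹ = h * b * h⁻¹ := by rw [h1, h2]
      exact mul_left_cancel (mul_right_cancel h3)
    · exact Or.inl h1
    · exact Or.inr h1
  have hgb' : g * b * g⁻¹ = a * b := by
    rcases hmap g hga with h1 | h1
    · exfalso
      apply hgb
      calc g * b = (g * b * g⁻¹) * g := by group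
        _ = b * g := by rw [h1]
    · exact h1
  have hcent : ∀ h : Q, h * a = a * h → h * b * h⁻¹ = b → h ∈ N := by
    intro h h1 h2
    apply hself
    have h3 : h * b = b * h := by
      calc h * b = (h * b * h⁻¹) * h := by group
        _ = b * h := by rw [h2]
    intro n hn
    rcases hel n hn with h4 | h4 | h4 | h4
    · rw [h4, mul_one, one_mul]
    · rw [h4, h1]
    · rw [h4, h3]
    · rw [h4, ← mul_assoc, h1, mul_assoc, h3, mul_assoc]
  -- the general conclusion
  have key : ∀ x : Q, x * x = a → (∀ n ∈ N, x * n * x⁻¹ = g * n * g⁻¹) →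
      ∀ h, h * x = x * h → h ∈ zpowers x := by
    intro x hxa hxN h hhx
    have hx : x * a = a * x := by rw [← hxa]; group
    have hha : h * a = a * h := by
      rw [← hxa, ← mul_assoc, hhx, mul_assoc, hhx, mul_assoc]
    have hfin : ∀ n ∈ N, n * x = x * n → n ∈ zpowers x := by
      intro n hn hnx
      have h1 : g * n * g⁻¹ = n := by
        rw [← hxN n hn, ← hnx]
        group
      have h2 : g * n = n * g := by
        calc g * n = (g * n * g⁻¹) * g := by group
          _ = n * g := by rw [h1]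
      rcases hCN n hn h2 with h3 | h3
      · rw [h3]; exact one_mem _
      · rw [h3, ← hxa]
        exact mul_mem (mem_zpowers x) (mem_zpowers x)
    rcases hmap h hha with h1 | h1
    · exact hfin h (hcent h hha h1) hhx
    · have h2 : (h * x) * b * (h * x)⁻¹ = b := by
        have h3 : x * b * x⁻¹ = a * b := by rw [hxN b hbN, hgb']
        have h4 : h * a * h⁻¹ = a := by rw [hha]; group
        calc (h * x) * b * (h * x)⁻¹ = h * (x * b * x⁻¹) * h⁻¹ := by group
          _ = (h * a * h⁻¹) * (h * b * h⁻¹) := by rw [h3]; group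
          _ = a * (a * b) := by rw [h4, h1]
          _ = b := by rw [← mul_assoc, hsq a haN, one_mul]
      have h3 : (h * x) * a = a * (h * x) := by
        rw [mul_assoc, hx, ← mul_assoc, hha, mul_assoc]
      have h4 := hcent (h * x) h3 h2
      have h5 : (h * x) * x = x * (h * x) := by rw [← mul_assoc, hhx]
      have h6 := hfin _ h4 h5
      have h7 := mul_mem h6 (inv_mem (mem_zpowers x))
      simpa using h7
  have hg2a : g * g = 1 ∨ g * g = a := hCN _ hg2 (by group)
  have hgbN : g * b ∉ N := fun h => hgN (by simpa using mul_mem h (inv_mem hbN))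
  have hgbgb : (g * b) * (g * b) = a * b * (g * g) * b := by
    rw [← hgb']
    group
  rcases hg2a with h | h
  · refine ⟨a, g, g * b, t, haN, ha1, hgN, h, hgbN, ?_, ?_, ht1, ht3⟩
    · rw [hgbgb, h, mul_one, mul_assoc, hsq b hbN, mul_one]
    · apply key
      · rw [hgbgb, h, mul_one, mul_assoc, hsq b hbN, mul_one]
      · intro n hn
        have h1 : b * n * b⁻¹ = n := by rw [hcomm b hbN n hn]; group
        calc g * b * n * (g * b)⁻¹ = g * (b * n * b⁻¹) * g⁻¹ := by group
          _ = _ := by rw [h1]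
  · refine ⟨a, g * b, g, t, haN, ha1, hgbN, ?_, hgN, h, ?_, ht1, ht3⟩
    · rw [hgbgb, h]
      have h1 : a * b * a = b := by
        rw [hcomm a haN b hbN, mul_assoc, hsq a haN, mul_one]
      rw [h1, hsq b hbN]
    · exact key g h (fun n _ => rfl)

end Cfsg.Agent.H558.CP
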