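import Mathlib
import Cfsg.Agent.H558.CP.Quasi
import Cfsg.Agent.H558.CP.SFour
set_option linter.all false

/-!
# Counting classes in the small quasi-primitive cases
-/

set_option autoImplicit false

namespace Cfsg.Agent.H558.CP

open Subgroup Cfsg.Agent.H553.Sy Cfsg.Agent.H553.CF
open scoped commutatorElement

universe u

variable {G : Type u} [Group G] [Finite G]

/-- the order modulo the center -/
noncomputable def oo (x : G) : ℕ := orderOf (QuotientGroup.mk' (center G) x)

omit [Finite G] in
theorem oo_conj {x y : G}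
    (h : IsConj (QuotientGroup.mk' (center G) x) (QuotientGroup.mk' (center G) y)) :
    oo x = oo y := by
  obtain ⟨g, hg⟩ := isConj_iff.mp h
  unfold oo
  rw [← hg]
  exact (MulAut.conj g).orderOf_eq _ |>.symm

omit [Finite G] in
theorem mem_conj (E : Subgroup G) [hE : E.Normal] (hZE : center G ≤ E) {x y : G}
    (h : IsConj (QuotientGroup.mk' (center G) x) (QuotientGroup.mk' (center G) y)) :
    x ∈ E → y ∈ E := by
  intro hx
  obtain ⟨g, hg⟩ := isConj_iff.mp h
  obtain ⟨g, rfl⟩ := QuotientGroup.mk'_surjective _ g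
  rw [← map_mul, ← map_inv, ← map_mul] at hg
  have h1 : (g * x * g⁻¹)⁻¹ * y ∈ center G := QuotientGroup.eq.mp hg
  have h2 := mul_mem (hE.conj_mem x hx g) (hZE h1)
  rwa [mul_inv_cancel_left] at h2

theorem cb_list (E : Subgroup G) [hE : E.Normal] (hZE : center G ≤ E) {ι : Type*} [Fintype ι]
    (x : ι → G) (hx : ∀ i j, oo (x i) = oo (x j) → (x i ∈ E ↔ x j ∈ E) → i = j)
    (t : ι → ℚ) (ht0 : ∀ i, 0 < t i) (ht : ∀ i, (Nat.card (Sx (x i)) : ℚ) ≤ t i) {m : ℕ}
    (hm : Nat.card G = m * Nat.card (center G)) {b : ℚ} (hb : 0 ≤ b)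
    (hmb : (m : ℚ) ≤ b * ∑ i, 1 / t i) : CB G b := by
  have h1 := count x (fun i j h => hx i j (oo_conj h)
    ⟨mem_conj E hZE h, mem_conj E hZE h.symm⟩) t ht0 ht
  unfold CB
  rw [hm]
  push_cast
  calc (m : ℚ) * Nat.card (center G) ≤ (b * ∑ i, 1 / t i) * Nat.card (center G) :=
        mul_le_mul_of_nonneg_right hmb (Nat.cast_nonneg _)
    _ = b * (Nat.card (center G) * ∑ i, 1 / t i) := by ring
    _ ≤ _ := mul_le_mul_of_nonneg_left h1 hb

/-- The data of the quasi-primitive case. -/
structure QS (E : Subgroup G) (n e s : ℕ) : Prop where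
  normal : E.Normal
  le : center G ≤ E
  comm : ∀ x ∈ E, ∀ y ∈ E, ⁅x, y⁆ ∈ center G
  cent : ∀ x : G, (∀ y ∈ E, x * y = y * x) → x ∈ center G
  dd : ∀ g : G, (∀ k ∈ E, ⁅k, g⁆ ∈ center G) → g ∈ E
  card : Nat.card E = e ^ 2 * Nat.card (center G)
  idx : E.index = s
  sx_le : ∀ x : G, Nat.card (Sx x) ≤ n
  sx_pow : ∀ x : G, ∀ z ∈ Sx x, z ^ n = 1

variable {E : Subgroup G} {n e s : ℕ}

omit [Finite G] in
theorem QS.card_G (h : QS E n e s) : Nat.card G = (e ^ 2 * s) * Nat.card (center G) := by
  rw [← E.card_mul_index, h.card, h.idx]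
  ring

theorem QS.card_quot (h : QS E n e s) : Nat.card (G ⧸ center G) = e ^ 2 * s := by
  have h1 := (center G).card_mul_index
  rw [h.card_G, mul_comm] at h1
  exact Nat.eq_of_mul_eq_mul_right Nat.card_pos h1

theorem QS.sx_coprime (h : QS E n e s) {x : G} {k : ℕ} (hk : x ^ k ∈ center G)
    (hkn : Nat.Coprime k n) : Nat.card (Sx x) = 1 := by
  have h1 : Sx x = ⊥ := by
    rw [eq_bot_iff]
    intro z hz
    have h2 := pow_eq_one_of_mem hk hz
    have h3 := h.sx_pow x z hz
    have h4 : orderOf z ∣ k := orderOf_dvd_of_pow_eq_one h2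
    have h5 : orderOf z ∣ n := orderOf_dvd_of_pow_eq_one h3
    have h6 : orderOf z = 1 := Nat.eq_one_of_dvd_coprimes hkn h4 h5
    exact orderOf_eq_one_iff.mp h6
  rw [h1]
  simp

theorem QS.exists_prime (h : QS E n e s) {p : ℕ} [Fact p.Prime] (hp : p ∣ e ^ 2 * s) :
    ∃ x : G, oo x = p := by
  obtain ⟨q, hq⟩ := exists_prime_orderOf_dvd_card' (G := G ⧸ center G) p
    (by rw [h.card_quot]; exact hp)
  obtain ⟨x, rfl⟩ := QuotientGroup.mk'_surjective _ q
  exact ⟨x, hq⟩

omit [Finite G] in
theorem oo_pow (x : G) : x ^ oo x ∈ center G := by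
  rw [← QuotientGroup.eq_one_iff]
  have h1 : QuotientGroup.mk' (center G) (x ^ oo x) = 1 := by
    rw [map_pow]
    exact pow_orderOf_eq_one _
  exact h1

omit [Finite G] in
theorem oo_one : oo (1 : G) = 1 := by
  unfold oo
  rw [map_one, orderOf_one]

omit [Finite G] in
theorem oo_eq_one {x : G} : oo x = 1 ↔ x ∈ center G := by
  unfold oo
  rw [orderOf_eq_one_iff]
  exact QuotientGroup.eq_one_iff x

theorem QS.card_map (h : QS E n e s) :
    Nat.card (E.map (QuotientGroup.mk' (center G))) = e ^ 2 := by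
  have h2 := card_mul_relIndex h.le
  rw [h.card, mul_comm] at h2
  have h3 := Nat.eq_of_mul_eq_mul_right Nat.card_pos h2
  rw [← h3, ← Subgroup.relIndex_ker, QuotientGroup.ker_mk']

omit [Finite G] in
theorem QS.mem_of_map (h : QS E n e s) {x : G}
    (hx : QuotientGroup.mk' (center G) x ∈ E.map (QuotientGroup.mk' (center G))) : x ∈ E := by
  obtain ⟨y, hy, hyx⟩ := hx
  have h1 : y⁻¹ * x ∈ center G := QuotientGroup.eq.mp hyx
  have h2 := mul_mem hy (h.le h1)
  rwa [mul_inv_cancel_left] at h2

theorem QS.oo_dvd (h : QS E n e s) {a : G} (ha : a ∈ E) : oo a ∣ e ^ 2 := by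
  rw [← h.card_map]
  exact Subgroup.orderOf_dvd_natCard _ (Subgroup.mem_map_of_mem _ ha)

theorem QS.exists_not_central (h : QS E n e s) (he : 2 ≤ e) : ∃ a ∈ E, a ∉ center G := by
  by_contra hcon
  push Not at hcon
  have h1 : E = center G := le_antisymm hcon h.le
  have h2 := h.card
  rw [h1] at h2
  have h3 : 0 < Nat.card (center G) := Nat.card_pos
  have h4 : 2 ^ 2 ≤ e ^ 2 := Nat.pow_le_pow_left he 2
  have h5 := Nat.mul_le_mul_right (Nat.card (center G)) h4
  omega

/-- dimension 2 -/
theorem quasi_two (h : QS E 2 2 s) (hs : s ∣ 6) :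
    CB G (11 / 2) ∨ (Nat.card G = 24 * Nat.card (center G) ∧
      4 * Nat.card (center G) ≤ Nat.card (ConjClasses G)) := by
  classical
  have hEn := h.normal
  have hsle : s ≤ 6 := Nat.le_of_dvd (by norm_num) hs
  have hs0 : s ≠ 0 := by
    rintro rfl
    norm_num at hs
  have hs4 : s = 1 ∨ s = 2 ∨ s = 3 ∨ s = 6 := by
    interval_cases s <;> omega
  obtain ⟨a, haE, haZ⟩ := h.exists_not_central le_rfl
  have ha1 : oo a ≠ 1 := fun h1 => haZ (oo_eq_one.mp h1)
  have hsa : ∀ x : G, (Nat.card (Sx x) : ℚ) ≤ 2 := fun x => by exact_mod_cast h.sx_le x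
  have hs1 : (Nat.card (Sx (1 : G)) : ℚ) ≤ 1 := by
    rw [Sx_one]; simp
  rcases hs4 with h1 | h1 | h1 | h1
  · left
    subst h1
    refine cb_list E h.le (fun _ : Fin 1 => (1 : G)) (fun i j _ _ => Subsingleton.elim _ _)
      (fun _ => 1) (fun _ => one_pos) (fun _ => hs1) h.card_G (by norm_num) (by norm_num)
  · left
    subst h1
    refine cb_list E h.le (![1, a] : Fin 2 → G) ?_ (![1, 2] : Fin 2 → ℚ) ?_ ?_ h.card_G
      (by norm_num) ?_
    · intro i j hij _
      fin_cases i <;> fin_cases j <;> simp [oo_one] at hij ⊢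
      · exact absurd hij.symm ha1
      · exact absurd hij ha1
    · intro i
      fin_cases i <;> norm_num
    · intro i
      fin_cases i
      · exact hs1
      · exact hsa a
    · simp [Fin.sum_univ_succ]
      norm_num
  · left
    subst h1
    obtain ⟨t, ht⟩ := h.exists_prime (p := 3) (by norm_num)
    have ht1 : (Nat.card (Sx t) : ℚ) ≤ 1 := by
      rw [h.sx_coprime (k := 3) (by rw [← ht]; exact oo_pow t) (by norm_num)]
      simp
    have ha3 : oo a ≠ 3 := by
      intro h3
      have := h.oo_dvd haE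
      rw [h3] at this
      norm_num at this
    refine cb_list E h.le (![1, a, t] : Fin 3 → G) ?_ (![1, 2, 1] : Fin 3 → ℚ) ?_ ?_ h.card_G
      (by norm_num) ?_
    · intro i j hij _
      fin_cases i <;> fin_cases j <;> simp [oo_one, ht] at hij ⊢
      · exact ha1 hij.symm
      · exact ha1 hij
      · exact ha3 hij
      · exact ha3 hij.symm
    · intro i
      fin_cases i <;> norm_num
    · intro i
      fin_cases i
      · exact hs1
      · exact hsa a
      · exact ht1
    · simp [Fin.sum_univ_succ]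
      norm_num
  · right
    subst h1
    refine ⟨h.card_G, ?_⟩
    set N := E.map (QuotientGroup.mk' (center G)) with hN
    have hNn : N.Normal := Subgroup.Normal.map hEn _ (QuotientGroup.mk'_surjective _)
    have hN4 : Nat.card N = 4 := h.card_map
    have hsq : ∀ n ∈ N, n * n = 1 := by
      rintro _ ⟨y, hy, rfl⟩
      have h1 := h.oo_dvd hy
      have h2 : oo y ≠ 4 := by
        intro h4
        have h5 : zpowers (QuotientGroup.mk' (center G) y) = N := by
          refine Subgroup.eq_of_le_of_card_ge ?_ ?_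
          · rw [zpowers_le]
            exact Subgroup.mem_map_of_mem _ hy
          · rw [Nat.card_zpowers, hN4]
            exact h4.ge
        have h6 : y ∈ center G := by
          apply h.cent
          intro k hk
          have h7 : QuotientGroup.mk' (center G) k ∈ zpowers (QuotientGroup.mk' (center G) y) := by
            rw [h5]
            exact Subgroup.mem_map_of_mem _ hk
          obtain ⟨i, hi⟩ := mem_zpowers_iff.mp h7
          rw [← map_zpow] at hi
          have h8 : (y ^ i)⁻¹ * k ∈ center G := QuotientGroup.eq.mp hi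
          have h9 := mem_center_iff.mp h8 y
          have h10 : k = y ^ i * ((y ^ i)⁻¹ * k) := by rw [mul_inv_cancel_left]
          rw [h10]
          generalize (y ^ i)⁻¹ * k = z at h9
          calc y * (y ^ i * z) = y ^ i * (y * z) := by group
            _ = y ^ i * z * y := by rw [h9, mul_assoc]
        rw [oo_eq_one.mpr h6] at h4
        omega
      have h3 : oo y ∣ 2 := by
        have h4 : oo y ≤ 4 := Nat.le_of_dvd (by norm_num) h1
        have h5 : oo y ≠ 0 := by
          intro h0
          rw [h0] at h1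
          norm_num at h1
        generalize oo y = m at *
        interval_cases m <;> omega
      rw [← pow_two]
      exact orderOf_dvd_iff_pow_eq_one.mp h3
    have hself : ∀ g, (∀ n ∈ N, g * n = n * g) → g ∈ N := by
      intro g hg
      obtain ⟨g, rfl⟩ := QuotientGroup.mk'_surjective _ g
      refine Subgroup.mem_map_of_mem _ (h.dd g (fun k hk => ?_))
      have h1 := hg _ (Subgroup.mem_map_of_mem (QuotientGroup.mk' (center G)) hk)
      rw [← QuotientGroup.eq_one_iff]
      have h2 : QuotientGroup.mk' (center G) ⁅k, g⁆ = 1 := by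
        rw [map_commutatorElement, commutatorElement_eq_one_iff_mul_comm, h1]
      exact h2
    obtain ⟨a, w, x, t, haN, ha1, hwN, hw2, hxN, hxa, hxc, ht1, ht3⟩ :=
      s4_elements N h.card_quot hN4 hsq hself
    obtain ⟨a, rfl⟩ := QuotientGroup.mk'_surjective _ a
    obtain ⟨w, rfl⟩ := QuotientGroup.mk'_surjective _ w
    obtain ⟨x, rfl⟩ := QuotientGroup.mk'_surjective _ x
    obtain ⟨t, rfl⟩ := QuotientGroup.mk'_surjective _ t
    have haE := h.mem_of_map haN
    have hwE : w ∉ E := fun hw => hwN (Subgroup.mem_map_of_mem _ hw)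
    have hoa : oo a = 2 := orderOf_eq_prime (by rw [pow_two]; exact hsq _ haN) ha1
    have how : oo w = 2 := by
      refine orderOf_eq_prime (by rw [pow_two]; exact hw2) (fun h1 => hwN ?_)
      rw [h1]
      exact one_mem _
    have hox : oo x = 4 := by
      have h1 : oo x = 2 ^ (1 + 1) := by
        refine orderOf_eq_prime_pow ?_ ?_
        · rw [pow_one, pow_two, hxa]
          exact ha1
        · have h3 : ∀ y : G ⧸ center G, y ^ 2 ^ (1 + 1) = (y * y) * (y * y) := by
            intro y
            have : 2 ^ (1 + 1) = 4 := by norm_num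
            rw [this, pow_succ, pow_succ, pow_two]
            group
          rw [h3, hxa]
          exact hsq _ haN
      rw [h1]
      norm_num
    have hot : oo t = 3 := orderOf_eq_prime ht3 ht1
    have hst : (Nat.card (Sx t) : ℚ) ≤ 1 := by
      rw [h.sx_coprime (k := 3) (by rw [← hot]; exact oo_pow t) (by norm_num)]
      simp
    have hsx : (Nat.card (Sx x) : ℚ) ≤ 1 := by
      have h1 : Sx x = ⊥ := by
        refine Sx_eq_bot_of_self (fun g hg => ?_)
        obtain ⟨z, hz, hgx⟩ := hg
        have h2 : QuotientGroup.mk' (center G) g * QuotientGroup.mk' (center G) x =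
            QuotientGroup.mk' (center G) x * QuotientGroup.mk' (center G) g := by
          have h3 : g * x = z * x * g := by rw [← hgx]; group
          have h4 : QuotientGroup.mk' (center G) z = 1 := (QuotientGroup.eq_one_iff z).mpr hz
          rw [← map_mul, h3, map_mul, map_mul, h4, one_mul]
        obtain ⟨i, hi⟩ := mem_zpowers_iff.mp (hxc _ h2)
        rw [← map_zpow] at hi
        refine ⟨i, (x ^ i)⁻¹ * g, QuotientGroup.eq.mp hi, ?_⟩
        rw [mul_inv_cancel_left]
      rw [h1]
      simp
    have hfin := count (![1, a, w, x, t] : Fin 5 → G) ?_ (![1, 2, 2, 1, 1] : Fin 5 → ℚ) ?_ ?_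
    · simp [Fin.sum_univ_succ] at hfin
      have h1 : (4 * Nat.card (center G) : ℚ) ≤ Nat.card (ConjClasses G) := by
        refine le_trans (le_of_eq ?_) hfin
        ring
      exact_mod_cast h1
    · intro i j hij
      have h1 := oo_conj hij
      have h2 := mem_conj E h.le hij
      have h3 := mem_conj E h.le hij.symm
      fin_cases i <;> fin_cases j <;> simp [oo_one, hoa, how, hox, hot] at h1 h2 h3 ⊢
      · exact hwE (h2 haE)
      · exact hwE (h3 haE)
    · intro i
      fin_cases i <;> norm_num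
    · intro i
      fin_cases i
      · exact hs1
      · exact hsa a
      · exact hsa w
      · exact hsx
      · exact hst

/-- dimension 3 -/
theorem quasi_three (h : QS E 3 3 s) (hs : s ∣ 24)
    (h24 : s = 24 → ∃ g : G, g ^ 4 ∈ E ∧ g ^ 2 ∉ E) : CB G (6589 / 100) := by
  classical
  have hEn := h.normal
  have hsle : s ≤ 24 := Nat.le_of_dvd (by norm_num) hs
  have hs1 : (Nat.card (Sx (1 : G)) : ℚ) ≤ 1 := by
    rw [Sx_one]; simp
  have hsa : ∀ x : G, (Nat.card (Sx x) : ℚ) ≤ 3 := fun x => by exact_mod_cast h.sx_le x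
  rcases Nat.lt_or_ge s 8 with h8 | h8
  · refine cb_list E h.le (fun _ : Fin 1 => (1 : G)) (fun i j _ _ => Subsingleton.elim _ _)
      (fun _ => 1) (fun _ => one_pos) (fun _ => hs1) h.card_G (by norm_num) ?_
    have h9 : (s : ℚ) ≤ 7 := by exact_mod_cast (by omega : s ≤ 7)
    push_cast
    simp
    linarith
  have hs3 : s = 8 ∨ s = 12 ∨ s = 24 := by
    interval_cases s <;> omega
  have h2s : 2 ∣ 3 ^ 2 * s := by
    rcases hs3 with rfl | rfl | rfl <;> norm_num
  by_cases h24' : s = 24
  · obtain ⟨g, hg4, hgg2⟩ := h24 h24'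
    obtain ⟨a, haE, haZ⟩ := h.exists_not_central (by norm_num)
    have ha1 : oo a ≠ 1 := fun h1 => haZ (oo_eq_one.mp h1)
    have ha9 := h.oo_dvd haE
    have hg36 : (g ^ 9) ^ 4 ∈ center G := by
      have h1 := h.oo_dvd hg4
      obtain ⟨c, hc⟩ := h1
      have h2 : (g ^ 4) ^ 9 ∈ center G := by
        have : (3 : ℕ) ^ 2 = 9 := by norm_num
        rw [this] at hc
        rw [hc, pow_mul]
        exact pow_mem (oo_pow _) c
      rwa [← pow_mul, mul_comm, pow_mul] at h2
    have hg2 : (g ^ 9) ^ 2 ∉ E := by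
      intro h1
      have h2 : (g ^ 9) ^ 2 = (g ^ 4) ^ 4 * g ^ 2 := by group
      rw [h2] at h1
      exact hgg2 ((E.mul_mem_cancel_left (pow_mem hg4 4)).mp h1)
    set x := g ^ 9 with hx
    have hox : oo x = 4 := by
      have h1 : oo x = 2 ^ (1 + 1) := by
        refine orderOf_eq_prime_pow ?_ ?_
        · rw [pow_one, ← map_pow]
          intro h1
          exact hg2 (h.le ((QuotientGroup.eq_one_iff _).mp h1))
        · rw [← map_pow]
          exact (QuotientGroup.eq_one_iff _).mpr hg36
      rw [h1]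
      norm_num
    have hox2 : oo (x ^ 2) = 2 := by
      refine orderOf_eq_prime ?_ ?_
      · rw [← map_pow, ← pow_mul]
        exact (QuotientGroup.eq_one_iff _).mpr hg36
      · intro h1
        exact hg2 (h.le ((QuotientGroup.eq_one_iff _).mp h1))
    have hsx : (Nat.card (Sx x) : ℚ) ≤ 1 := by
      rw [h.sx_coprime (k := 4) hg36 (by norm_num)]
      simp
    have hsx2 : (Nat.card (Sx (x ^ 2)) : ℚ) ≤ 1 := by
      rw [h.sx_coprime (k := 2) (by have := oo_pow (x ^ 2); rwa [hox2] at this) (by norm_num)]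
      simp
    have ha2 : oo a ≠ 2 := by
      intro h1
      rw [h1] at ha9
      norm_num at ha9
    have ha4 : oo a ≠ 4 := by
      intro h1
      rw [h1] at ha9
      norm_num at ha9
    subst h24'
    refine cb_list E h.le (![1, a, x, x ^ 2] : Fin 4 → G) ?_ (![1, 3, 1, 1] : Fin 4 → ℚ) ?_ ?_
      h.card_G (by norm_num) ?_
    · intro i j hij _
      fin_cases i <;> fin_cases j <;> simp [oo_one, hox, hox2] at hij ⊢
      · exact ha1 hij.symm
      · exact ha1 hij
      · exact ha4 hij
      · exact ha2 hij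
      · exact ha4 hij.symm
      · exact ha2 hij.symm
    · intro i
      fin_cases i <;> norm_num
    · intro i
      fin_cases i
      · exact hs1
      · exact hsa a
      · exact hsx
      · exact hsx2
    · simp [Fin.sum_univ_succ]
      norm_num
  · obtain ⟨t, ht⟩ := h.exists_prime (p := 2) h2s
    have ht1 : (Nat.card (Sx t) : ℚ) ≤ 1 := by
      rw [h.sx_coprime (k := 2) (by rw [← ht]; exact oo_pow t) (by norm_num)]
      simp
    refine cb_list E h.le (![1, t] : Fin 2 → G) ?_ (![1, 1] : Fin 2 → ℚ) ?_ ?_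
      h.card_G (by norm_num) ?_
    · intro i j hij _
      fin_cases i <;> fin_cases j <;> simp [oo_one, ht] at hij ⊢
    · intro i
      fin_cases i <;> norm_num
    · intro i
      fin_cases i
      · exact hs1
      · exact ht1
    · have h9 : (s : ℚ) ≤ 12 := by exact_mod_cast (by omega : s ≤ 12)
      simp [Fin.sum_univ_succ]
      linarith

/-- dimension 4 -/
theorem quasi_four (h : QS E 4 4 s) (hs : s ≤ 90 ∨ s = 120) : CB G (72479 / 100) := by
  classical
  have hEn := h.normal
  have hs1 : (Nat.card (Sx (1 : G)) : ℚ) ≤ 1 := by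
    rw [Sx_one]; simp
  have hsa : ∀ x : G, (Nat.card (Sx x) : ℚ) ≤ 4 := fun x => by exact_mod_cast h.sx_le x
  rcases Nat.lt_or_ge s 46 with h8 | h8
  · refine cb_list E h.le (fun _ : Fin 1 => (1 : G)) (fun i j _ _ => Subsingleton.elim _ _)
      (fun _ => 1) (fun _ => one_pos) (fun _ => hs1) h.card_G (by norm_num) ?_
    have h9 : (s : ℚ) ≤ 45 := by exact_mod_cast (by omega : s ≤ 45)
    push_cast
    simp
    linarith
  rcases Nat.lt_or_ge s 68 with h9 | h9
  · obtain ⟨a, haE, haZ⟩ := h.exists_not_central (by norm_num)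
    obtain ⟨g, hg⟩ : ∃ g, g ∉ E := by
      by_contra hcon
      push Not at hcon
      have h1 : E = ⊤ := (eq_top_iff' E).mpr hcon
      have h2 := h.idx
      rw [h1, Subgroup.index_top] at h2
      omega
    have ha1 : oo a ≠ 1 := fun h1 => haZ (oo_eq_one.mp h1)
    have hg1 : oo g ≠ 1 := fun h1 => hg (h.le (oo_eq_one.mp h1))
    refine cb_list E h.le (![1, a, g] : Fin 3 → G) ?_ (![1, 4, 4] : Fin 3 → ℚ) ?_ ?_
      h.card_G (by norm_num) ?_
    · intro i j hij hE
      fin_cases i <;> fin_cases j <;> simp [oo_one] at hij hE ⊢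
      · exact ha1 hij.symm
      · exact hg1 hij.symm
      · exact ha1 hij
      · exact hg (hE.mp haE)
      · exact hg1 hij
      · exact hg (hE.mpr haE)
    · intro i
      fin_cases i <;> norm_num
    · intro i
      fin_cases i
      · exact hs1
      · exact hsa a
      · exact hsa g
    · have h9 : (s : ℚ) ≤ 67 := by exact_mod_cast (by omega : s ≤ 67)
      simp [Fin.sum_univ_succ]
      linarith
  rcases hs with h90 | h120
  · obtain ⟨p, hp, hps, hp2⟩ : ∃ p, p.Prime ∧ p ∣ s ∧ p ≠ 2 := by
      by_contra hcon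
      push Not at hcon
      have h1 : s = 2 ^ s.primeFactorsList.length :=
        Nat.eq_prime_pow_of_unique_prime_dvd (by omega) (fun {d} hd hds => hcon d hd hds)
      generalize s.primeFactorsList.length = k at h1
      rcases Nat.lt_or_ge k 7 with h2 | h2
      · have h3 : 2 ^ k ≤ 2 ^ 6 := Nat.pow_le_pow_right (by norm_num) (by omega)
        norm_num at h3
        omega
      · have h3 : 2 ^ 7 ≤ 2 ^ k := Nat.pow_le_pow_right (by norm_num) h2
        norm_num at h3
        omega
    have : Fact p.Prime := ⟨hp⟩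
    obtain ⟨t, ht⟩ := h.exists_prime (p := p) (hps.mul_left _)
    have hcop : Nat.Coprime p 4 := by
      have h1 : Nat.Coprime p 2 := (Nat.coprime_primes hp Nat.prime_two).mpr hp2
      have h2 : (4 : ℕ) = 2 ^ 2 := by norm_num
      rw [h2]
      exact h1.pow_right 2
    have ht1 : (Nat.card (Sx t) : ℚ) ≤ 1 := by
      rw [h.sx_coprime (k := p) (by rw [← ht]; exact oo_pow t) hcop]
      simp
    refine cb_list E h.le (![1, t] : Fin 2 → G) ?_ (![1, 1] : Fin 2 → ℚ) ?_ ?_
      h.card_G (by norm_num) ?_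
    · intro i j hij _
      fin_cases i <;> fin_cases j <;> simp [oo_one, ht] at hij ⊢
      · exact hp.one_lt.ne' hij.symm
      · exact hp.one_lt.ne' hij
    · intro i
      fin_cases i <;> norm_num
    · intro i
      fin_cases i
      · exact hs1
      · exact ht1
    · have h9 : (s : ℚ) ≤ 90 := by exact_mod_cast h90
      simp [Fin.sum_univ_succ]
      linarith
  · subst h120
    obtain ⟨t, ht⟩ := h.exists_prime (p := 3) (by norm_num)
    have : Fact (Nat.Prime 5) := ⟨by norm_num⟩
    obtain ⟨u, hu⟩ := h.exists_prime (p := 5) (by norm_num)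
    have ht1 : (Nat.card (Sx t) : ℚ) ≤ 1 := by
      rw [h.sx_coprime (k := 3) (by rw [← ht]; exact oo_pow t) (by norm_num)]
      simp
    have hu1 : (Nat.card (Sx u) : ℚ) ≤ 1 := by
      rw [h.sx_coprime (k := 5) (by rw [← hu]; exact oo_pow u) (by norm_num)]
      simp
    refine cb_list E h.le (![1, t, u] : Fin 3 → G) ?_ (![1, 1, 1] : Fin 3 → ℚ) ?_ ?_
      h.card_G (by norm_num) ?_
    · intro i j hij _
      fin_cases i <;> fin_cases j <;> simp [oo_one, ht, hu] at hij ⊢
    · intro i
      fin_cases i <;> norm_num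
    · intro i
      fin_cases i
      · exact hs1
      · exact ht1
      · exact hu1
    · simp [Fin.sum_univ_succ]
      norm_num

end Cfsg.Agent.H558.CP
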