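import Mathlib
import Cfsg.Agent.H558.CP.Impr_mg
set_option linter.all false

/-!
# The imprimitive step with the bound `BB`
-/

set_option autoImplicit false

namespace Cfsg.Agent.H558.CP

open Module Subgroup

universe u v w

/-- The bound in dimension `n`. -/
def Bd (K : Type w) [Field K] (n : ℕ) : Prop :=
  ∀ (G : Type u) [Group G] [Finite G] [Group.IsSolvable G] (V : Type v) [AddCommGroup V]
    [Module K V] [FiniteDimensional K V] (ρ : Representation K G V), Function.Injective ρ →
    Irr ρ → finrank K V = n → CB G (BB n)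

variable {K : Type w} [Field K] {G : Type u} [Group G] {V : Type v} [AddCommGroup V] [Module K V]

theorem scalar_of_wt [IsAlgClosed K] [FiniteDimensional K V] [Finite G] (ρ : Representation K G V)
    (A : Subgroup G) (hord : ∀ a ∈ A, (orderOf a : K) ≠ 0) (χ : A → K) (h : wt ρ A χ = ⊤) (a : G)
    (ha : a ∈ A) : ∀ v, ρ a v = χ ⟨a, ha⟩ • v := by
  have h1 : Module.End.maxGenEigenspace (ρ a) (χ ⟨a, ha⟩) = ⊤ := by
    rw [eq_top_iff, ← h]
    exact iInf_le (fun b : A => Module.End.maxGenEigenspace (ρ b) (χ b)) ⟨a, ha⟩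
  refine scalar_of_maxGen (ρ a) (n := orderOf a) (hord a ha) ?_ _ h1
  rw [← map_pow, pow_orderOf_eq_one, map_one]

theorem step [IsAlgClosed K] [Finite G] [hs : Group.IsSolvable G] [FiniteDimensional K V]
    (ρ : Representation K G V) (hρ : Function.Injective ρ) (hirr : Irr ρ) (A : Subgroup G)
    (hA : A.Normal) (hc : ∀ a ∈ A, ∀ b ∈ A, a * b = b * a)
    (hord : ∀ a ∈ A, (orderOf a : K) ≠ 0)
    (hns : ¬ ∀ a ∈ A, ∃ c : K, ∀ v, ρ a v = c • v)
    (ih : ∀ n, 1 ≤ n → n < finrank K V → Bd.{u, v, w} K n) :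
    CB G (BB (finrank K V)) ∧ (finrank K V = 2 → CB G 4) := by
  classical
  have hfin := finite_Om ρ hc
  have := Fintype.ofFinite (Om ρ A)
  have hsum := sum_finrank ρ hc
  have hpos : ∀ χ : Om ρ A, 1 ≤ finrank K (wt ρ A χ.1) := by
    intro χ
    have : Nontrivial (wt ρ A χ.1) := (Submodule.nontrivial_iff_ne_bot).mpr χ.2
    exact Module.finrank_pos
  have hVpos : 1 ≤ finrank K V := by
    have := hirr.1
    exact Module.finrank_pos
  have hne : Nonempty (Om ρ A) := by
    by_contra hempty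
    rw [not_nonempty_iff] at hempty
    rw [Finset.univ_eq_empty, Finset.sum_empty] at hsum
    omega
  have hlt : ∀ χ : Om ρ A, finrank K (wt ρ A χ.1) < finrank K V := by
    intro χ
    refine Submodule.finrank_lt (fun htop => hns ?_)
    intro a ha
    exact ⟨_, scalar_of_wt ρ A hord χ.1 htop a ha⟩
  have htwo : 2 ≤ Fintype.card (Om ρ A) := by
    by_contra hcon
    push Not at hcon
    have h0 : 0 < Fintype.card (Om ρ A) := Fintype.card_pos
    have h1 : Fintype.card (Om ρ A) = 1 := by omega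
    obtain ⟨χ, hχ⟩ := Fintype.card_eq_one_iff.mp h1
    have h2 := hlt χ
    rw [← hsum, Finset.sum_eq_single χ (fun b _ hb => absurd (hχ b) hb)
      (fun h => absurd (Finset.mem_univ _) h)] at h2
    exact lt_irrefl _ h2
  have hQ : ∀ χ : Om ρ A, CB (Q ρ hA hρ χ) (BB (finrank K (wt ρ A χ.1))) := by
    intro χ
    have hs' : Group.IsSolvable (Q ρ hA hρ χ) := inferInstance
    exact ih _ (hpos χ) (hlt χ) (Q ρ hA hρ χ) (wt ρ A χ.1) (repQ ρ hA hρ χ)
      (repQ_inj ρ hA hρ χ) (irr_repQ ρ hA hρ hc hirr χ) rfl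
  have hmain := cb_impr ρ hA hρ hc (fun χ => BB (finrank K (wt ρ A χ.1)))
    (fun χ => BB_nonneg _) hQ
  set S := Nat.card (act ρ hA hρ).range with hS
  set r := Fintype.card (Om ρ A) with hr
  have hsol : Group.IsSolvable (act ρ hA hρ).range :=
    Group.isSolvable_of_surjective (MonoidHom.rangeRestrict_surjective (act ρ hA hρ))
  have hdix : S ^ 3 ≤ 24 ^ (r - 1) :=
    H489.card_pow_three_le r (Om ρ A) (act ρ hA hρ).range hsol Nat.card_eq_fintype_card (by omega)
  have hSfac : S ≤ r.factorial := by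
    have h1 : Nat.card (Equiv.Perm (Om ρ A)) = r.factorial := by
      rw [Nat.card_perm, Nat.card_eq_fintype_card]
    rw [← h1]
    exact Subgroup.card_le_card_group _
  have hrn : r ≤ finrank K V := by
    rw [← hsum, hr, ← Finset.card_univ, Finset.card_eq_sum_ones]
    exact Finset.sum_le_sum (fun χ _ => hpos χ)
  by_cases hex : ∃ χ : Om ρ A, 2 ≤ finrank K (wt ρ A χ.1)
  · obtain ⟨χ, hχ⟩ := hex
    have hrn' : r < finrank K V := by
      rw [← hsum, hr, ← Finset.card_univ, Finset.card_eq_sum_ones]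
      exact Finset.sum_lt_sum (fun χ _ => hpos χ) ⟨χ, Finset.mem_univ _, hχ⟩
    refine ⟨hmain.mono ?_, fun h => by omega⟩
    have h1 := prod_le' (fun χ : Om ρ A => finrank K (wt ρ A χ.1)) hpos χ hχ
    rw [hsum] at h1
    have h2 := num_gen htwo hdix
    rw [BB_three_le (by omega)]
    calc (∏ χ : Om ρ A, BB (finrank K (wt ρ A χ.1))) * (S : ℚ) ^ 2
        ≤ (6 / 11 * 11 ^ (finrank K V - r)) * (S : ℚ) ^ 2 := by gcongr
      _ = 11 ^ (finrank K V - r) * ((S : ℚ) ^ 2 * (6 / 11)) := by ring
      _ ≤ 11 ^ (finrank K V - r) * (599 / 100 * 11 ^ (r - 2)) := by gcongr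
      _ = 599 / 100 * 11 ^ ((finrank K V - r) + (r - 2)) := by rw [pow_add]; ring
      _ = _ := by congr 2; omega
  · push Not at hex
    have hone : ∀ χ : Om ρ A, finrank K (wt ρ A χ.1) = 1 := fun χ => by
      have := hpos χ
      have := hex χ
      omega
    have hrn' : finrank K V = r := by
      rw [← hsum, Finset.sum_congr rfl (fun χ _ => hone χ)]
      simp [hr]
    have hprod : ∏ χ : Om ρ A, BB (finrank K (wt ρ A χ.1)) = 1 := by
      rw [Finset.prod_congr rfl (fun χ _ => by rw [hone χ])]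
      simp [BB]
    rw [hprod, one_mul] at hmain
    rw [hrn']
    rcases Nat.lt_or_ge r 4 with hr4 | hr4
    · have h23 : r = 2 ∨ r = 3 := by omega
      rcases h23 with h | h
      · rw [h] at hSfac ⊢
        have h3 : (S : ℚ) ≤ 2 := by
          have : Nat.factorial 2 = 2 := rfl
          rw [this] at hSfac
          exact_mod_cast hSfac
        have h4 : (S : ℚ) ^ 2 ≤ 4 := by
          have : (0 : ℚ) ≤ S := Nat.cast_nonneg _
          nlinarith
        exact ⟨hmain.mono (h4.trans (by norm_num [BB])), fun _ => hmain.mono h4⟩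
      · rw [h] at hSfac ⊢
        have h3 : (S : ℚ) ≤ 6 := by
          have : Nat.factorial 3 = 6 := rfl
          rw [this] at hSfac
          exact_mod_cast hSfac
        have h4 : (S : ℚ) ^ 2 ≤ 36 := by
          have : (0 : ℚ) ≤ S := Nat.cast_nonneg _
          nlinarith
        exact ⟨hmain.mono (h4.trans (by norm_num [BB])), fun h => by omega⟩
    · refine ⟨hmain.mono ?_, fun h => by omega⟩
      rw [BB_three_le (by omega)]
      exact num_one hr4 hdix

end Cfsg.Agent.H558.CP
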