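import Mathlib
import Cfsg.Agent.H558.CP.QuasiB
import Cfsg.Agent.H558.CP.Step
import Cfsg.Agent.LieClassical.SympCount
set_option linter.all false

/-!
# The quasi-primitive case
-/

set_option autoImplicit false

namespace Cfsg.Agent.H558.CP

open Module Subgroup Cfsg.Agent.H553.Sy Cfsg.Agent.H553.CF
open scoped commutatorElement

universe u v w

theorem card_sp_two : Nat.card (Matrix.symplecticGroup (Fin 1) (ZMod 2)) = 6 := by
  rw [LieClassical.SympCount.card_symplecticGroup]
  simp

theorem card_sp_three : Nat.card (Matrix.symplecticGroup (Fin 1) (ZMod 3)) = 24 := by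
  rw [LieClassical.SympCount.card_symplecticGroup]
  simp

theorem card_dvd_of_inj {A B : Type*} [Group A] [Group B] [Finite B] (f : A →* B)
    (hf : Function.Injective f) : Nat.card A ∣ Nat.card B := by
  rw [Nat.card_congr (MonoidHom.ofInjective hf).toEquiv]
  exact Subgroup.card_subgroup_dvd_card _

theorem exists_four {A : Type*} [Group A] (f : A →* Matrix.symplecticGroup (Fin 1) (ZMod 3))
    (hf : Function.Injective f) (hA : Nat.card A = 24) : ∃ q : A, q ^ 4 = 1 ∧ q ^ 2 ≠ 1 := by
  have hfinA : Finite A := Nat.finite_of_card_ne_zero (by omega)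
  have hfinB : Finite (Matrix.symplecticGroup (Fin 1) (ZMod 3)) :=
    Nat.finite_of_card_ne_zero (by rw [card_sp_three]; omega)
  have hbij := hf.bijective_of_nat_card_le (by rw [hA, card_sp_three])
  obtain ⟨q, hq⟩ := hbij.2 (SymplecticGroup.symJ (Fin 1) (ZMod 3))
  have h2 : ((f q ^ 2 : Matrix.symplecticGroup (Fin 1) (ZMod 3)) :
      Matrix (Fin 1 ⊕ Fin 1) (Fin 1 ⊕ Fin 1) (ZMod 3)) = -1 := by
    rw [hq, SubmonoidClass.coe_pow, pow_two]
    exact Matrix.J_squared (Fin 1) (ZMod 3)
  refine ⟨q, ?_, ?_⟩
  · apply hf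
    rw [map_one, map_pow]
    have h3 : f q ^ 4 = (f q ^ 2) * (f q ^ 2) := by rw [← pow_add]
    rw [h3]
    apply Subtype.ext
    rw [Submonoid.coe_mul, h2]
    simp
  · intro h
    have h3 : (f q) ^ 2 = 1 := by rw [← map_pow, h, map_one]
    rw [h3] at h2
    have h4 := congrFun (congrFun h2 (Sum.inl 0)) (Sum.inl 0)
    simp at h4
    exact absurd h4 (by decide)

variable {K : Type w} [Field K] {G : Type u} [Group G] {V : Type v} [AddCommGroup V] [Module K V]

/-- **The quasi-primitive case.** -/
theorem quasi [Finite G] [Group.IsSolvable G] [FiniteDimensional K V] [Nontrivial V]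
    (ρ : Representation K G V) (hρ : Function.Injective ρ)
    (hs : ∀ A : Subgroup G, A.Normal → (∀ x ∈ A, ∀ y ∈ A, x * y = y * x) →
      ∀ a ∈ A, ∃ c : K, ∀ v, ρ a v = c • v) :
    CB G (BB (finrank K V)) ∧ (finrank K V = 2 → CB G (11 / 2) ∨
      (Nat.card G = 24 * Nat.card (center G) ∧
        4 * Nat.card (center G) ≤ Nat.card (ConjClasses G))) := by
  classical
  obtain ⟨s⟩ := exists_scal ρ hρ
    (hs (center G) inferInstance (fun x hx y _ => (mem_center_iff.mp hx y).symm))
  have hab : ∀ A : Subgroup G, A.Normal → (∀ x ∈ A, ∀ y ∈ A, x * y = y * x) → A ≤ center G := by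
    intro A hA hAc a ha
    obtain ⟨c, hc⟩ := hs A hA hAc a ha
    rw [mem_center_iff]
    intro g
    apply hρ
    rw [map_mul, map_mul]
    ext v
    rw [Module.End.mul_apply, Module.End.mul_apply, hc, hc, map_smul]
  have hcyc := s.cyclic
  obtain ⟨E, hEn, hZE, -, hEE, hEc, e, he, hEcard, hEsub⟩ :=
    TT_all hcyc hab _ ⊤ rfl inferInstance le_top
  have hEc' : ∀ x : G, (∀ y ∈ E, x * y = y * x) → x ∈ center G := fun x hx => hEc x trivial hx
  have hD := D_eq s E hZE hEE hEc'
  have hDn := D_normal hEn
  obtain ⟨h1, h2, h3⟩ := hEsub hDn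
  have hen : e ≤ finrank K V := e_le s E hZE hEE hEc' e hEcard
  have hidx : Nat.card (G ⧸ D E) = E.index := by
    change (D E).index = E.index
    rw [hD]
  have hQS : QS E (finrank K V) e E.index :=
    { normal := hEn
      le := hZE
      comm := hEE
      cent := hEc'
      dd := fun g hg => by
        rw [← hD, mem_D]
        exact hg
      card := hEcard
      idx := rfl
      sx_le := s.card_Sx_le
      sx_pow := fun x z hz => s.pow_eq_one hz }
  rw [hidx] at h1 h2
  -- the trivial bound
  have htriv : CB G (HH e) := by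
    have hs1 : (Nat.card (Sx (1 : G)) : ℚ) ≤ 1 := by
      rw [Sx_one]; simp
    refine cb_list E hZE (fun _ : Fin 1 => (1 : G)) (fun i j _ _ => Subsingleton.elim _ _)
      (fun _ => 1) (fun _ => one_pos) (fun _ => hs1) hQS.card_G (Nat.cast_nonneg _) ?_
    simp only [Finset.univ_unique, Finset.sum_const, Finset.card_singleton, one_smul,
      div_one, mul_one]
    exact_mod_cast h1
  by_cases he2 : e = 2
  · subst he2
    have hs6 : E.index ∣ 6 := by
      obtain ⟨f, hf⟩ := h3 Nat.prime_two
      have hfin : Finite (Matrix.symplecticGroup (Fin 1) (ZMod 2)) :=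
        Nat.finite_of_card_ne_zero (by rw [card_sp_two]; omega)
      have := card_dvd_of_inj f hf
      rwa [card_sp_two, hidx] at this
    by_cases hn2 : finrank K V = 2
    · rw [hn2] at hQS
      have h4 := quasi_two hQS hs6
      refine ⟨?_, fun _ => h4⟩
      rw [hn2]
      rcases h4 with h4 | ⟨h4, h5⟩
      · exact h4.mono (by norm_num [BB])
      · unfold CB
        have h6 : (4 * Nat.card (center G) : ℚ) ≤ Nat.card (ConjClasses G) := by exact_mod_cast h5
        rw [h4]
        simp only [BB]
        push_cast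
        linarith
    · refine ⟨htriv.mono ?_, fun h => absurd h hn2⟩
      rw [BB_three_le (by omega)]
      have h4 : (11 : ℚ) ^ 1 ≤ 11 ^ (finrank K V - 2) := pow_le_pow_right₀ (by norm_num) (by omega)
      norm_num [HH] at h4 ⊢
      linarith
  by_cases he3 : e = 3
  · subst he3
    refine ⟨?_, fun h => by omega⟩
    obtain ⟨f, hf⟩ := h3 Nat.prime_three
    have hs24 : E.index ∣ 24 := by
      have hfin : Finite (Matrix.symplecticGroup (Fin 1) (ZMod 3)) :=
        Nat.finite_of_card_ne_zero (by rw [card_sp_three]; omega)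
      have := card_dvd_of_inj f hf
      rwa [card_sp_three, hidx] at this
    by_cases hn3 : finrank K V = 3
    · rw [hn3] at hQS
      rw [hn3]
      refine (quasi_three hQS hs24 ?_).mono (by norm_num [BB])
      intro h24
      obtain ⟨q, hq4, hq2⟩ := exists_four f hf (by rw [hidx, h24])
      obtain ⟨g, rfl⟩ := QuotientGroup.mk_surjective q
      refine ⟨g, ?_, ?_⟩
      · rw [← hD]
        exact (QuotientGroup.eq_one_iff (g ^ 4)).mp hq4
      · rw [← hD]
        intro h
        exact hq2 ((QuotientGroup.eq_one_iff (g ^ 2)).mpr h)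
    · refine htriv.mono ?_
      rw [BB_three_le (by omega)]
      have h4 : (11 : ℚ) ^ 2 ≤ 11 ^ (finrank K V - 2) := pow_le_pow_right₀ (by norm_num) (by omega)
      norm_num [HH] at h4 ⊢
      linarith
  by_cases he4 : e = 4
  · subst he4
    refine ⟨?_, fun h => by omega⟩
    by_cases hn4 : finrank K V = 4
    · rw [hn4] at hQS
      rw [hn4]
      exact (quasi_four hQS (h2 rfl)).mono (by norm_num [BB])
    · refine htriv.mono ?_
      rw [BB_three_le (by omega)]
      have h4 : (11 : ℚ) ^ 3 ≤ 11 ^ (finrank K V - 2) := pow_le_pow_right₀ (by norm_num) (by omega)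
      norm_num [HH] at h4 ⊢
      linarith
  by_cases he5 : 5 ≤ e
  · refine ⟨htriv.mono ?_, fun h => by omega⟩
    rw [BB_three_le (by omega), HH_five_le he5]
    have h4 : (11 : ℚ) ^ (e - 2) ≤ 11 ^ (finrank K V - 2) :=
      pow_le_pow_right₀ (by norm_num) (by omega)
    push_cast
    have h5 : (0 : ℚ) < 11 ^ (e - 2) := by positivity
    linarith
  · have he1 : e = 1 := by omega
    subst he1
    have h4 : CB G 1 := htriv.mono (by norm_num [HH])
    refine ⟨h4.mono ?_, fun _ => Or.inl (h4.mono (by norm_num))⟩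
    have h5 : 1 ≤ finrank K V := hen
    generalize finrank K V = n at h5
    rcases n with _ | _ | _ | n
    · norm_num [BB]
    · norm_num [BB]
    · norm_num [BB]
    · simp only [BB]
      have h6 : (1 : ℚ) ≤ 11 ^ (n + 1) := one_le_pow₀ (by norm_num)
      linarith

end Cfsg.Agent.H558.CP
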